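import Cfsg.Agent.F2C.Defs
import Cfsg.Agent.GT.Cores
import Cfsg.Agent.GT.CoprimeFixed

set_option autoImplicit false
set_option linter.unusedSectionVars false
set_option linter.unusedVariables false
open Cfsg

namespace Cfsg.Agent.F2C

variable {G : Type*} [Group G] [Finite G]

theorem BasicA_eq (q : ℕ) (H : Subgroup G) : Oq q H = pCoreOf q H :=
  le_antisymm (sSup_le fun _ h => GT.le_pCoreOf h.1 h.2.1 h.2.2)
    (le_sSup ⟨GT.pCoreOf_le H, GT.le_normalizer_pCoreOf H, GT.isPGroup_pCoreOf q H⟩)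

theorem oq_spec (q : ℕ) [Fact q.Prime] (H : Subgroup G) :
    Oq q H ≤ H ∧ H ≤ Nm (Oq q H) ∧ IsPGroup q (Oq q H) := by
  rw [BasicA_eq]
  exact ⟨GT.pCoreOf_le H, GT.le_normalizer_pCoreOf H, GT.isPGroup_pCoreOf q H⟩

theorem le_oq {q : ℕ} {H R : Subgroup G} (h1 : R ≤ H) (h2 : H ≤ Nm R) (h3 : IsPGroup q R) :
    R ≤ Oq q H := le_sSup ⟨h1, h2, h3⟩

theorem BasicA_ce (a : G) : Subgroup.centralizer (Subgroup.zpowers a : Set G) = Ce a := by
  rw [Subgroup.zpowers_eq_closure, Subgroup.centralizer_closure]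

/-- coprime action -/
theorem coprime_decomp {p : ℕ} (hp : p.Prime) {a : G} (ha : orderOf a = p) {R : Subgroup G}
    (hc : (Nat.card R).Coprime p) (hn : a ∈ Nm R) :
    ⁅R, Subgroup.zpowers a⁆ ≤ R ∧ R ≤ Nm ⁅R, Subgroup.zpowers a⁆ ∧ a ∈ Nm ⁅R, Subgroup.zpowers a⁆ ∧
    ⁅⁅R, Subgroup.zpowers a⁆, Subgroup.zpowers a⁆ = ⁅R, Subgroup.zpowers a⁆ ∧
    ∀ r ∈ R, ∃ d ∈ ⁅R, Subgroup.zpowers a⁆, ∃ c ∈ R ⊓ Ce a, r = d * c := by
  have h1 : Subgroup.zpowers a ≤ Nm R := Subgroup.zpowers_le.2 hn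
  have h2 : (Nat.card (Subgroup.zpowers a)).Coprime (Nat.card R) := by
    rw [Nat.card_zpowers, ha]
    exact hc.symm
  refine ⟨GT.CopAct.commutator_le_of_le_normalizer h1, Subgroup.normalizer_commutator_ge_left _ _,
    Subgroup.normalizer_commutator_ge_right _ _ (Subgroup.mem_zpowers a),
    GT.CopAct.commutator_commutator_eq h1 h2, fun r hr => ?_⟩
  obtain ⟨d, hd, c, hc, e⟩ := GT.CopAct.exists_eq_commutator_mul_centralizer h1 h2
    (.inl (Group.isSolvable_of_comm fun x y => mul_comm' x y)) hr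
  exact ⟨d, hd, c, BasicA_ce a ▸ hc, e.symm⟩

theorem dd_comm {p : ℕ} (hp : p.Prime) {a : G} (ha : orderOf a = p) {R : Subgroup G}
    (hR : Group.IsNilpotent R) (hc : (Nat.card R).Coprime p) (hn : a ∈ Nm R) :
    DD p a ⁅R, Subgroup.zpowers a⁆ := by
  obtain ⟨h1, -, h2, h3, -⟩ := coprime_decomp hp ha hc hn
  exact ⟨Group.nilpotent_of_mulEquiv (Subgroup.subgroupOfEquivOfLe h1),
    hc.coprime_dvd_left (Subgroup.card_dvd_of_le h1), h2, h3⟩

theorem BasicA_cop {p q : ℕ} (hp : p.Prime) (hq : q.Prime) (hqp : q ≠ p) {R : Subgroup G} (h : IsPGroup q R) :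
    (Nat.card R).Coprime p := by
  have := Fact.mk hq
  obtain ⟨n, hn⟩ := h.exists_card_eq
  rw [hn]
  exact ((Nat.coprime_primes hq hp).2 hqp).pow_left n

theorem dq_comm {p q : ℕ} (hp : p.Prime) (hq : q.Prime) (hqp : q ≠ p) {a : G} (ha : orderOf a = p)
    {R : Subgroup G} (hR : InvQ q a R) : DQ q a ⁅R, Subgroup.zpowers a⁆ := by
  obtain ⟨h1, -, h2, h3, -⟩ := coprime_decomp hp ha (BasicA_cop hp hq hqp hR.1) hR.2
  exact ⟨hR.1.to_le h1, h2, h3⟩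

theorem DQ.dd {p q : ℕ} (hp : p.Prime) (hq : q.Prime) (hqp : q ≠ p) {a : G} {Q : Subgroup G}
    (h : DQ q a Q) : DD p a Q :=
  have := Fact.mk hq
  ⟨h.1.isNilpotent, BasicA_cop hp hq hqp h.1, h.2.1, h.2.2⟩

/-- a fixed-point-free invariant `q`-subgroup is in `𝒟_q` -/
theorem dq_of_fpf {p q : ℕ} (hp : p.Prime) (hq : q.Prime) (hqp : q ≠ p) {a : G}
    (ha : orderOf a = p) {R : Subgroup G} (hR : InvQ q a R) (h : R ⊓ Ce a = ⊥) : DQ q a R := by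
  obtain ⟨h1, -, -, -, h2⟩ := coprime_decomp hp ha (BasicA_cop hp hq hqp hR.1) hR.2
  refine ⟨hR.1, hR.2, le_antisymm h1 fun r hr => ?_⟩
  obtain ⟨d, hd, c, hc, rfl⟩ := h2 r hr
  rw [h, Subgroup.mem_bot] at hc
  rwa [hc, mul_one]

theorem exists_max_ge (P : Subgroup G → Prop) {D : Subgroup G} (h : P D) :
    ∃ D', Maximal P D' ∧ D ≤ D' := by
  obtain ⟨D', h1, h2⟩ := Finite.exists_le_maximal h
  exact ⟨D', h2, h1⟩

end Cfsg.Agent.F2C
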