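import Cfsg.Agent.F2C.Defs
import Cfsg.Agent.Loc.MssBase
import Cfsg.Agent.GT.Fitting
import Cfsg.Agent.GT.Conj

set_option autoImplicit false
set_option linter.unusedSectionVars false
open Cfsg

namespace Cfsg.Agent.F2C

open Cfsg.Agent.GT Subgroup
open scoped commutatorElement

variable {G : Type*} [Group G] [Finite G]

theorem bb_factor {a : G} {D A B : Subgroup G} (hD : ⁅D, zpowers a⁆ = D) (hA : A ≤ D)
    (hnA : a ∈ Nm A) (hnB : a ∈ Nm B) (hc : ∀ u ∈ A, ∀ v ∈ B, Commute u v)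
    (hd : ∀ d ∈ D, ∃ u ∈ A, ∃ v ∈ B, d = u * v) (hi : A ⊓ B = ⊥) : ⁅A, zpowers a⁆ = A := by
  have zA : zpowers a ≤ Nm A := zpowers_le.2 hnA
  have zB : zpowers a ≤ Nm B := zpowers_le.2 hnB
  have h1 : ⁅A, zpowers a⁆ ≤ A := Loc.Mss.comm_le_left zA
  have h2 : D ≤ ⁅A, zpowers a⁆ ⊔ B := by
    rw [← hD]
    refine commutator_le.2 fun d hd' z hz => ?_
    obtain ⟨u, hu, v, hv, rfl⟩ := hd d hd'
    have hb : v * (z * v⁻¹ * z⁻¹) ∈ B := mul_mem hv (Loc.Mss.conj_mem_of_norm (zB hz) (inv_mem hv))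
    have e : ⁅u * v, z⁆ = v * (z * v⁻¹ * z⁻¹) * ⁅u, z⁆ := by
      have := (hc u hu _ hb).eq
      calc ⁅u * v, z⁆ = (u * (v * (z * v⁻¹ * z⁻¹))) * (z * u⁻¹ * z⁻¹) := by
            rw [commutatorElement_def]; group
        _ = _ := by rw [this, commutatorElement_def]; group
    rw [e]
    exact mul_mem (mem_sup_right hb) (mem_sup_left (commutator_mem_commutator hu hz))
  refine le_antisymm h1 fun x hx => ?_
  have hn : B ≤ Nm ⁅A, zpowers a⁆ :=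
    Loc.Mss.norm_of_cent fun v hv => Loc.Mss.mem_cent.2 fun y hy => (hc y (h1 hy) v hv).eq
  obtain ⟨y, hy, b, hb, rfl⟩ := (Loc.Mss.mem_sup_norm hn).1 (h2 (hA hx))
  have : b ∈ A ⊓ B := ⟨(A.mul_mem_cancel_left (h1 hy)).1 hx, hb⟩
  rw [hi, mem_bot] at this
  rwa [this, mul_one]

theorem bb_nil {D E : Subgroup G} (hD : Group.IsNilpotent D) (h : E ≤ D) : Group.IsNilpotent E :=
  nilpotent_of_mulEquiv (subgroupOfEquivOfLe h)

/-- Sylow parts of a member of `𝒟(a)` -/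
theorem dd_parts {p q : ℕ} (hp : p.Prime) (hq : q.Prime) {a : G} (ha : orderOf a = p)
    {D : Subgroup G} (hD : DD p a D) :
    DQ q a (Dq q a D) ∧ Dq q a D ≤ D ∧ D ≤ Nm (Dq q a D) ∧
    (∀ d ∈ D, ∀ n : ℕ, d ^ q ^ n = 1 → d ∈ Dq q a D) ∧
    DD p a (Dq' p q a D) ∧ (Nat.card (Dq' p q a D)).Coprime q ∧ Dq' p q a D ≤ D ∧
    D ≤ Nm (Dq' p q a D) ∧ (∀ d ∈ D, (orderOf d).Coprime q → d ∈ Dq' p q a D) ∧
    (∀ u ∈ Dq q a D, ∀ v ∈ Dq' p q a D, Commute u v) ∧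
    (∀ d ∈ D, ∃ u ∈ Dq q a D, ∃ v ∈ Dq' p q a D, d = v * u) := by
  obtain ⟨hn, hcp, haD, hcm⟩ := hD
  have := Fact.mk hq
  have hP : pCoreOf q D ≤ D := pCoreOf_le D
  have hE : pPrimeCoreOf q D ≤ D := pPrimeCoreOf_le D
  have pP : IsPGroup q (pCoreOf q D) := isPGroup_pCoreOf q D
  have cE := coprime_card_pPrimeCoreOf q D
  have nP : Nm D ≤ Nm (pCoreOf q D) := normalizer_le_normalizer_pCoreOf D
  have nE : Nm D ≤ Nm (pPrimeCoreOf q D) := normalizer_le_normalizer_pPrimeCoreOf D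
  have mP : ∀ K ≤ D, IsPGroup q K → K ≤ pCoreOf q D := fun K h1 h2 => le_pCoreOf_of_isNilpotent h1 h2
  have mE : ∀ K ≤ D, (Nat.card K).Coprime q → K ≤ pPrimeCoreOf q D := fun K h1 h2 => by
    rw [pPrimeCoreOf_eq_piCoreOf_dvd]
    exact le_piCoreOf_of_isNilpotent h1 (isPiNum_compl_setOf_dvd_iff.2 h2)
  have cop : (Nat.card (pCoreOf q D)).Coprime (Nat.card (pPrimeCoreOf q D)) := by
    obtain ⟨k, hk⟩ := IsPGroup.iff_card.1 pP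
    rw [hk]
    exact (cE.symm).pow_left k
  have hc : ∀ u ∈ pCoreOf q D, ∀ v ∈ pPrimeCoreOf q D, Commute u v := fun u hu v hv =>
    commute_of_coprime_of_isNilpotent (hP hu) (hE hv)
      ((cop.coprime_dvd_left (orderOf_dvd_natCard _ hu)).coprime_dvd_right (orderOf_dvd_natCard _ hv))
  have hd : ∀ d ∈ D, ∃ u ∈ pCoreOf q D, ∃ v ∈ pPrimeCoreOf q D, d = u * v := fun d hd => by
    rw [← pCoreOf_sup_pPrimeCoreOf q D] at hd
    obtain ⟨u, hu, v, hv, e⟩ := (Loc.Mss.mem_sup_norm (hE.trans (le_normalizer.trans nP))).1 hd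
    exact ⟨u, hu, v, hv, e.symm⟩
  have hd' : ∀ d ∈ D, ∃ v ∈ pPrimeCoreOf q D, ∃ u ∈ pCoreOf q D, d = v * u := fun d hd0 => by
    obtain ⟨u, hu, v, hv, e⟩ := hd d hd0
    exact ⟨v, hv, u, hu, e.trans (hc u hu v hv).eq⟩
  have hi : pCoreOf q D ⊓ pPrimeCoreOf q D = ⊥ := inf_eq_bot_of_coprime cop
  have dP : DQ q a (pCoreOf q D) := ⟨pP, nP haD, bb_factor hcm hP (nP haD) (nE haD) hc hd hi⟩
  have dE : DD p a (pPrimeCoreOf q D) := ⟨bb_nil hn hE, hcp.coprime_dvd_left (card_dvd_of_le hE), nE haD,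
    bb_factor hcm hE (nE haD) (nP haD) (fun u hu v hv => (hc v hv u hu).symm) hd' ((inf_comm _ _).trans hi)⟩
  have e1 : Dq q a D = pCoreOf q D :=
    le_antisymm (sSup_le fun Q hQ => mP Q hQ.1 hQ.2.1) (le_sSup ⟨hP, dP⟩)
  have e2 : Dq' p q a D = pPrimeCoreOf q D :=
    le_antisymm (sSup_le fun Q hQ => mE Q hQ.1 hQ.2.2) (le_sSup ⟨hE, dE, cE⟩)
  rw [e1, e2]
  refine ⟨dP, hP, le_normalizer.trans nP, fun d hd n e => ?_, dE, cE, hE, le_normalizer.trans nE,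
    fun d hd e => ?_, hc, fun d hd => ?_⟩
  · refine mP _ (zpowers_le.2 hd) (Loc.Mss.pg_iff.2 ?_) (mem_zpowers d)
    rintro _ ⟨k, rfl⟩
    exact ⟨n, by
      show (d ^ k) ^ q ^ n = 1
      rw [← zpow_natCast, ← zpow_mul, mul_comm, zpow_mul, zpow_natCast, e, one_zpow]⟩
  · exact mE _ (zpowers_le.2 hd) (by rwa [Nat.card_zpowers]) (mem_zpowers d)
  · obtain ⟨v, hv, u, hu, e⟩ := hd' d hd
    exact ⟨u, hu, v, hv, e⟩

theorem bb_norm {a : G} {D : Subgroup G} (h : a ∈ Nm D) (g : G) : g * a * g⁻¹ ∈ Nm (cj g D) :=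
  (Loc.Mss.cj_norm D g).le (Loc.Mss.conj_mem_cj h)

theorem bb_comm {a : G} {D : Subgroup G} (h : ⁅D, zpowers a⁆ = D) (g : G) :
    ⁅cj g D, zpowers (g * a * g⁻¹)⁆ = cj g D := by
  have e : zpowers (g * a * g⁻¹) = cj g (zpowers a) := (MonoidHom.map_zpowers (MulAut.conj g).toMonoidHom a).symm
  rw [e, ← Loc.Mss.cj_comm, h]

theorem bb_nil_cj {D : Subgroup G} (h : Group.IsNilpotent D) (g : G) : Group.IsNilpotent (cj g D) :=
  nilpotent_of_mulEquiv (D.equivMapOfInjective _ (Loc.Mss.cj_inj g))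

theorem bb_back (g a : G) : g⁻¹ * (g * a * g⁻¹) * g⁻¹⁻¹ = a := by group

theorem bb_le_norm {H R : Subgroup G} (h : H ≤ Nm R) (g : G) : cj g H ≤ Nm (cj g R) :=
  (Loc.Mss.cj_mono g h).trans (Loc.Mss.cj_norm R g).le

theorem bb_sSup (g : G) {S S' : Set (Subgroup G)} (h : ∀ D ∈ S, cj g D ∈ S')
    (h' : ∀ D ∈ S', cj g⁻¹ D ∈ S) : sSup S' = cj g (sSup S) :=
  le_antisymm (sSup_le fun D hD => Loc.Mss.le_cj_iff_inv_le.2 (le_sSup (h' D hD)))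
    (Loc.Mss.cj_le_iff_le_inv.2 (sSup_le fun D hD => Loc.Mss.cj_le_iff_le_inv.1 (le_sSup (h D hD))))

theorem dd_conj {p : ℕ} {a : G} {D : Subgroup G} (h : DD p a D) (g : G) :
    DD p (g * a * g⁻¹) (cj g D) :=
  ⟨bb_nil_cj h.1 g, Loc.Mss.card_cj D g ▸ h.2.1, bb_norm h.2.2.1 g, bb_comm h.2.2.2 g⟩

theorem dq_conj {q : ℕ} {a : G} {D : Subgroup G} (h : DQ q a D) (g : G) :
    DQ q (g * a * g⁻¹) (cj g D) :=
  ⟨Loc.Mss.pg_cj h.1 g, bb_norm h.2.1 g, bb_comm h.2.2 g⟩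

theorem maxq_conj {q : ℕ} {a : G} {D : Subgroup G} (h : Maximal (DQ q a) D) (g : G) :
    Maximal (DQ q (g * a * g⁻¹)) (cj g D) :=
  ⟨dq_conj h.1 g, fun _ hE hle => Loc.Mss.le_cj_iff_inv_le.2
    (h.2 (bb_back g a ▸ dq_conj hE g⁻¹) (Loc.Mss.cj_le_iff_le_inv.1 hle))⟩

theorem line_conj {q : ℕ} {a : G} {M : Subgroup G} (h : Line q a M) (g : G) :
    Line q (g * a * g⁻¹) (cj g M) := by
  obtain ⟨h1, Q, h2, h3, h4⟩ := h
  exact ⟨isCoatom_map_conj h1 g, cj g Q, maxq_conj h2 g, fun e => h3 (Loc.Mss.cj_eq_bot.1 e),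
    (Loc.Mss.cj_norm Q g).ge.trans (Loc.Mss.cj_mono g h4)⟩

theorem dmax_conj (p : ℕ) (a : G) (H : Subgroup G) (g : G) :
    Dmax p (g * a * g⁻¹) (cj g H) = cj g (Dmax p a H) :=
  bb_sSup g (fun _ h => ⟨Loc.Mss.cj_mono g h.1, dd_conj h.2 g⟩)
    fun _ h => ⟨Loc.Mss.le_cj_iff_inv_le.1 h.1, bb_back g a ▸ dd_conj h.2 g⁻¹⟩

theorem dq_part_conj (q : ℕ) (a : G) (H : Subgroup G) (g : G) :
    Dq q (g * a * g⁻¹) (cj g H) = cj g (Dq q a H) :=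
  bb_sSup g (fun _ h => ⟨Loc.Mss.cj_mono g h.1, dq_conj h.2 g⟩)
    fun _ h => ⟨Loc.Mss.le_cj_iff_inv_le.1 h.1, bb_back g a ▸ dq_conj h.2 g⁻¹⟩

theorem dq'_conj (p q : ℕ) (a : G) (H : Subgroup G) (g : G) :
    Dq' p q (g * a * g⁻¹) (cj g H) = cj g (Dq' p q a H) :=
  bb_sSup g (fun D h => ⟨Loc.Mss.cj_mono g h.1, dd_conj h.2.1 g, Loc.Mss.card_cj D g ▸ h.2.2⟩)
    fun D h => ⟨Loc.Mss.le_cj_iff_inv_le.1 h.1, bb_back g a ▸ dd_conj h.2.1 g⁻¹,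
      Loc.Mss.card_cj D g⁻¹ ▸ h.2.2⟩

theorem oq_conj (q : ℕ) (H : Subgroup G) (g : G) : Oq q (cj g H) = cj g (Oq q H) :=
  bb_sSup g (fun _ h => ⟨Loc.Mss.cj_mono g h.1, bb_le_norm h.2.1 g, Loc.Mss.pg_cj h.2.2 g⟩)
    fun _ h => ⟨Loc.Mss.le_cj_iff_inv_le.1 h.1,
      (Loc.Mss.cj_inv_cj H g).ge.trans (bb_le_norm h.2.1 g⁻¹), Loc.Mss.pg_cj h.2.2 g⁻¹⟩

theorem Core.conj {p : ℕ} {x : G} (h : Core p x) (g : G) : Core p (g * x * g⁻¹) := by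
  have ne : ∀ (H : Subgroup G) (k : G), H ≠ ⊤ → cj k H ≠ ⊤ := fun H k hH e =>
    hH (Loc.Mss.cj_eq_cj.1 (e.trans (Loc.Mss.cj_top k).symm))
  refine ⟨h.prime, ?_, h.fit, fun H hH hx => ?_, fun y => ?_⟩
  · rw [← h.ord]
    exact (MulAut.conj g).orderOf_eq x
  · have hx' : x ∈ cj g⁻¹ H := bb_back g x ▸ Loc.Mss.conj_mem_cj (g := g⁻¹) hx
    obtain ⟨F, K, h1, h2, h3, h4, h5, h6, h7, h8⟩ := h.loc _ (ne H g⁻¹ hH) hx'
    have eH : H ≤ cj g (cj g⁻¹ H) := (Loc.Mss.cj_cj_inv H g).ge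
    refine ⟨cj g F, cj g K, Loc.Mss.cj_mono g h1, Loc.Mss.cj_le_iff_le_inv.2 h2, eH.trans (bb_le_norm h3 g),
      eH.trans (bb_le_norm h4 g), Loc.Mss.conj_mem_cj h5, bb_nil_cj h6 g, Loc.Mss.card_cj F g ▸ h7, ?_⟩
    rintro _ ⟨k, hk, rfl⟩
    obtain ⟨n, hn⟩ := h8 k hk
    exact ⟨n, k ^ p ^ n, hn, map_pow _ _ _⟩
  · have e : closure ({g * x * g⁻¹, y} : Set G) = cj g (closure ({x, g⁻¹ * y * g} : Set G)) := by
      rw [cj, MonoidHom.map_closure, Set.image_pair]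
      congr 3
      show y = g * (g⁻¹ * y * g) * g⁻¹
      group
    rw [e]
    exact ne _ g (h.two _)

/-- elements normalising `H` and centralising `a` normalise the three canonical subgroups -/
theorem norm_parts (p q : ℕ) {a c : G} {H : Subgroup G} (hc : c ∈ Ce a) (hH : c ∈ Nm H) :
    c ∈ Nm (Dmax p a H) ∧ c ∈ Nm (Dq q a H) ∧ c ∈ Nm (Dq' p q a H) := by
  have e1 : c * a * c⁻¹ = a := by
    rw [mem_centralizer_singleton_iff.1 hc, mul_inv_cancel_right]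
  have e2 : cj c H = H := Loc.Mss.cj_of_norm hH
  have h1 := dmax_conj p a H c
  have h2 := dq_part_conj q a H c
  have h3 := dq'_conj p q a H c
  rw [e1, e2] at h1 h2 h3
  exact ⟨Loc.Mss.cj_eq_iff.1 h1.symm, Loc.Mss.cj_eq_iff.1 h2.symm, Loc.Mss.cj_eq_iff.1 h3.symm⟩

end Cfsg.Agent.F2C
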