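import Mathlib
import Cfsg.Prelude.Def_Solvable

/-! Definitions for S3817 (membership in the second Fitting subgroup). See stubs/.../F2C/PLAN.md. -/

set_option autoImplicit false
open Cfsg

namespace Cfsg.Agent.F2C

variable {G : Type*} [Group G]

/-- `g H g⁻¹`. -/
abbrev cj (g : G) (H : Subgroup G) : Subgroup G := H.map (MulAut.conj g).toMonoidHom

/-- normaliser of a subgroup -/
abbrev Nm (H : Subgroup G) : Subgroup G := Subgroup.normalizer (H : Set G)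

/-- centraliser of an element -/
abbrev Ce (a : G) : Subgroup G := Subgroup.centralizer ({a} : Set G)

/-- `x` lies in a metanilpotent normal subgroup of `H`. -/
def MN (H : Subgroup G) (x : G) : Prop :=
  ∃ A K : Subgroup G, A ≤ K ∧ K ≤ H ∧ x ∈ K ∧ H ≤ Nm A ∧ H ≤ Nm K ∧ Group.IsNilpotent A ∧
    ∃ n, K.lowerCentralSeries n ≤ A

/-- the two-generator hypothesis -/
def Good (x : G) : Prop := ∀ y : G, MN (Subgroup.closure ({x, y} : Set G)) x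

/-- `a` lies in a normal subgroup `K` of `H` that is (nilpotent `p'`)-by-`p`. -/
def Loc (p : ℕ) (H : Subgroup G) (a : G) : Prop :=
  ∃ F K : Subgroup G, F ≤ K ∧ K ≤ H ∧ H ≤ Nm F ∧ H ≤ Nm K ∧ a ∈ K ∧ Group.IsNilpotent F ∧
    (Nat.card F).Coprime p ∧ ∀ k ∈ K, ∃ n : ℕ, k ^ p ^ n ∈ F

/-- the minimal configuration -/
structure Core (p : ℕ) (x : G) : Prop where
  prime : p.Prime
  ord : orderOf x = p
  fit : fittingSubgroup G = ⊥
  loc : ∀ H : Subgroup G, H ≠ ⊤ → x ∈ H → Loc p H x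
  two : ∀ y : G, Subgroup.closure ({x, y} : Set G) ≠ ⊤

/-- `D ∈ 𝒟(a)`: nilpotent `p'`, `a`-invariant, `D = [D,a]`. -/
def DD (p : ℕ) (a : G) (D : Subgroup G) : Prop :=
  Group.IsNilpotent D ∧ (Nat.card D).Coprime p ∧ a ∈ Nm D ∧ ⁅D, Subgroup.zpowers a⁆ = D

/-- `Q ∈ 𝒟_q(a)`. -/
def DQ (q : ℕ) (a : G) (Q : Subgroup G) : Prop :=
  IsPGroup q Q ∧ a ∈ Nm Q ∧ ⁅Q, Subgroup.zpowers a⁆ = Q

/-- `a`-invariant `q`-subgroup -/
def InvQ (q : ℕ) (a : G) (R : Subgroup G) : Prop := IsPGroup q R ∧ a ∈ Nm R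

/-- `D_a(H)` -/
def Dmax (p : ℕ) (a : G) (H : Subgroup G) : Subgroup G := sSup {D | D ≤ H ∧ DD p a D}

/-- `D_a(H)_q`, also the `q`-part of a member of `𝒟(a)` -/
def Dq (q : ℕ) (a : G) (H : Subgroup G) : Subgroup G := sSup {Q | Q ≤ H ∧ DQ q a Q}

/-- the `q'`-part -/
def Dq' (p q : ℕ) (a : G) (H : Subgroup G) : Subgroup G :=
  sSup {E | E ≤ H ∧ DD p a E ∧ (Nat.card E).Coprime q}

/-- `O_q(H)` as a subgroup of `G` -/
def Oq (q : ℕ) (H : Subgroup G) : Subgroup G := sSup {R | R ≤ H ∧ H ≤ Nm R ∧ IsPGroup q R}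

/-- unique type: `𝒟_q(a)` has a greatest member -/
def TypeU (q : ℕ) (a : G) : Prop := ∃ Q, DQ q a Q ∧ ∀ Q', DQ q a Q' → Q' ≤ Q

/-- fixed-point-free type -/
def TypeF (q : ℕ) (a : G) : Prop := ∀ Q, DQ q a Q → Q ⊓ Ce a = ⊥

/-- `M ∈ 𝓜_q(a)` -/
def Line (q : ℕ) (a : G) (M : Subgroup G) : Prop :=
  IsCoatom M ∧ ∃ Q, Maximal (DQ q a) Q ∧ Q ≠ ⊥ ∧ Nm Q ≤ M

end Cfsg.Agent.F2C
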