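import Cfsg.Agent.F2C.Defs
import Cfsg.Agent.F2C.BasicA
import Cfsg.Agent.GT.Fitting

set_option autoImplicit false
open Cfsg

namespace Cfsg.Agent.F2C

variable {G : Type*} [Group G] [Finite G]

omit [Finite G] in
theorem Dmax_aux_nm {K : Subgroup G} {g k : G} (hg : g ∈ Nm K) (hk : k ∈ K) : g * k * g⁻¹ ∈ K :=
  (Subgroup.mem_normalizer_iff.1 hg k).1 hk

theorem Dmax_aux_le {p : ℕ} {x : G} {H F K D : Subgroup G} (hK : H ≤ Nm K) (hx : x ∈ K)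
    (hp : ∀ k ∈ K, ∃ n : ℕ, k ^ p ^ n ∈ F) (hD : DD p x D) (hDH : D ≤ H) : D ≤ F := by
  have h1 : D ≤ K := by
    rw [← hD.2.2.2, Subgroup.commutator_le]
    intro d hd y hy
    have hy' : y ∈ K := Subgroup.zpowers_le.2 hx hy
    exact mul_mem (Dmax_aux_nm (hK (hDH hd)) hy') (inv_mem hy')
  intro d hd
  obtain ⟨n, hn⟩ := hp d (h1 hd)
  have c : (p ^ n).Coprime (orderOf d) :=
    (Nat.Coprime.coprime_dvd_left (Subgroup.orderOf_dvd_natCard D hd) hD.2.1).symm.pow_left n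
  exact Subgroup.zpowers_le.2 hn (mem_zpowers_pow_iff.2 c)

theorem Core.dmax_spec {p : ℕ} {x : G} (h : Core p x) {H : Subgroup G} (hH : H ≠ ⊤) (hx : x ∈ H) :
    DD p x (Dmax p x H) ∧ Dmax p x H ≤ H ∧ (∀ D, DD p x D → D ≤ H → D ≤ Dmax p x H) ∧
    ∃ F K : Subgroup G, F ≤ K ∧ K ≤ H ∧ H ≤ Nm F ∧ H ≤ Nm K ∧ x ∈ K ∧ Group.IsNilpotent F ∧
      (Nat.card F).Coprime p ∧ (∀ k ∈ K, ∃ n : ℕ, k ^ p ^ n ∈ F) ∧
      Dmax p x H = ⁅F, Subgroup.zpowers x⁆ := by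
  obtain ⟨F, K, h1, h2, h3, h4, h5, h6, h7, h8⟩ := h.loc H hH hx
  have d0 := dd_comm h.prime h.ord h6 h7 (h3 hx)
  have e : Dmax p x H = ⁅F, Subgroup.zpowers x⁆ := by
    refine le_antisymm (sSup_le fun D hD => ?_)
      (le_sSup ⟨(coprime_decomp h.prime h.ord h7 (h3 hx)).1.trans (h1.trans h2), d0⟩)
    rw [← hD.2.2.2.2]
    exact Subgroup.commutator_mono (Dmax_aux_le h4 h5 h8 hD.2 hD.1) le_rfl
  exact ⟨e ▸ d0, sSup_le fun D hD => hD.1, fun D h1 h2 => le_sSup ⟨h2, h1⟩, F, K, h1, h2, h3, h4, h5, h6,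
    h7, h8, e⟩

theorem Core.dq_spec {p q : ℕ} {x : G} (h : Core p x) (hq : q.Prime) (hqp : q ≠ p)
    {H : Subgroup G} (hH : H ≠ ⊤) (hx : x ∈ H) :
    DQ q x (Dq q x H) ∧ Dq q x H ≤ Oq q H ∧ Dq q x H = ⁅Oq q H, Subgroup.zpowers x⁆ ∧
    (∀ Q, DQ q x Q → Q ≤ H → Q ≤ Dq q x H) ∧ Dq q x H = Dq q x (Dmax p x H) ∧
    Dq' p q x H = Dq' p q x (Dmax p x H) := by
  haveI := Fact.mk hq
  obtain ⟨F, K, h1, h2, h3, h4, h5, h6, h7, h8⟩ := h.loc H hH hx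
  obtain ⟨o1, o2, o3⟩ := oq_spec q H
  obtain ⟨-, m2, m3, -⟩ := h.dmax_spec hH hx
  have d0 := dq_comm h.prime hq hqp h.ord (R := Oq q H) ⟨o3, o2 hx⟩
  have l0 : ⁅Oq q H, Subgroup.zpowers x⁆ ≤ Oq q H := by
    rw [Subgroup.commutator_le]
    intro r hr y hy
    have := mul_mem hr (Dmax_aux_nm (Subgroup.zpowers_le.2 (o2 hx) hy) (inv_mem hr))
    simpa only [commutatorElement_def, mul_assoc] using this
  have e : Dq q x H = ⁅Oq q H, Subgroup.zpowers x⁆ := by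
    refine le_antisymm (sSup_le fun Q hQ => ?_) (le_sSup ⟨l0.trans o1, d0⟩)
    rw [← hQ.2.2.2]
    refine Subgroup.commutator_mono ?_ le_rfl
    have a := Dmax_aux_le h4 h5 h8 (hQ.2.dd h.prime hq hqp) hQ.1
    exact (GT.le_pCoreOf_of_isNilpotent a hQ.2.1).trans (le_oq ((GT.pCoreOf_le F).trans (h1.trans h2))
      (h3.trans (GT.normalizer_le_normalizer_pCoreOf F)) (GT.isPGroup_pCoreOf q F))
  refine ⟨e ▸ d0, e ▸ l0, e, fun Q h1 h2 => le_sSup ⟨h2, h1⟩, ?_, ?_⟩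
  · exact le_antisymm (sSup_le fun Q hQ => le_sSup ⟨m3 Q (hQ.2.dd h.prime hq hqp) hQ.1, hQ.2⟩)
      (sSup_le fun Q hQ => le_sSup ⟨hQ.1.trans m2, hQ.2⟩)
  · exact le_antisymm (sSup_le fun Q hQ => le_sSup ⟨m3 Q hQ.2.1 hQ.1, hQ.2⟩)
      (sSup_le fun Q hQ => le_sSup ⟨hQ.1.trans m2, hQ.2⟩)

/-- `q'`-members of `𝒟(x)` inside a proper `H ∋ x` centralise `O_q(H)` -/
theorem Core.comm_oq {p q : ℕ} {x : G} (h : Core p x) (hq : q.Prime) {H E : Subgroup G}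
    (hH : H ≠ ⊤) (hx : x ∈ H) (hE : DD p x E) (hEH : E ≤ H) (hc : (Nat.card E).Coprime q) :
    ∀ e ∈ E, ∀ r ∈ Oq q H, Commute e r := by
  haveI := Fact.mk hq
  obtain ⟨F, K, h1, h2, h3, h4, h5, h6, h7, h8⟩ := h.loc H hH hx
  obtain ⟨o1, o2, o3⟩ := oq_spec q H
  haveI := o3.isNilpotent
  haveI := GT.isNilpotent_sup_of_le_normalizer (H := F) (K := Oq q H) (h1.trans (h2.trans o2)) (o1.trans h3)
  intro e he r hr
  refine GT.commute_of_coprime_of_isNilpotent (H := F ⊔ Oq q H)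
    (Subgroup.mem_sup_left (Dmax_aux_le h4 h5 h8 hE hEH he)) (Subgroup.mem_sup_right hr) ?_
  obtain ⟨n, hn⟩ := o3.exists_card_eq
  have a : orderOf r ∣ q ^ n := hn ▸ Subgroup.orderOf_dvd_natCard _ hr
  exact Nat.Coprime.coprime_dvd_right a
    ((Nat.Coprime.coprime_dvd_left (Subgroup.orderOf_dvd_natCard E he) hc).pow_right n)

/-- normalisers of nontrivial nilpotent subgroups are proper -/
theorem Core.nm_ne_top {p : ℕ} {x : G} (h : Core p x) {R : Subgroup G} (hR : Group.IsNilpotent R)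
    (hne : R ≠ ⊥) : Nm R ≠ ⊤ := fun e => by
  haveI := Subgroup.normalizer_eq_top_iff.1 e
  exact hne (le_bot_iff.1 (h.fit ▸ GT.le_fitting R))

theorem Core.ce_ne_top {p : ℕ} {x : G} (h : Core p x) {w : G} (hw : w ≠ 1) : Ce w ≠ ⊤ := fun e => by
  have : w ∈ Subgroup.center G := Subgroup.mem_center_iff.2 fun g =>
    Subgroup.mem_centralizer_singleton_iff.1 (show g ∈ Ce w from e ▸ Subgroup.mem_top g)
  exact hw (Subgroup.mem_bot.1 (h.fit ▸ GT.center_le_fitting this))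

theorem Dmax_aux_ne {p : ℕ} {x : G} (h : Core p x) : x ≠ 1 := fun e => by
  have := h.ord
  rw [e, orderOf_one] at this
  exact h.prime.one_lt.ne this

theorem Dmax_aux_bot {p : ℕ} {x : G} (h : Core p x) {N A : Subgroup G} [N.Normal] (hA : N ≤ Nm A)
    (hn : Group.IsNilpotent (A ⊓ N : Subgroup G)) : A ⊓ N = ⊥ := by
  have a : N ≤ Nm (A ⊓ N) := fun g hg => Subgroup.mem_normalizer_fintype fun y hy =>
    ⟨Dmax_aux_nm (hA hg) hy.1, Subgroup.Normal.conj_mem inferInstance y hy.2 g⟩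
  exact le_bot_iff.1 (h.fit ▸ (GT.le_fittingOf inf_le_right a).trans (GT.fittingOf_le_fitting N))

theorem Dmax_aux_K {p : ℕ} {x : G} (h : Core p x) {H N : Subgroup G} (hH : H ≠ ⊤) (hx : x ∈ H)
    [N.Normal] (hN : N ≤ H) : ∃ K : Subgroup G, x ∈ K ∧ H ≤ Nm K ∧ K ⊓ N = ⊥ := by
  haveI := Fact.mk h.prime
  obtain ⟨F, K, h1, h2, h3, h4, h5, h6, h7, h8⟩ := h.loc H hH hx
  have a : F ⊓ N = ⊥ := Dmax_aux_bot h (hN.trans h3) (GT.isNilpotent_of_le (K := F) inf_le_left)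
  refine ⟨K, h5, h4, Dmax_aux_bot h (hN.trans h4) (IsPGroup.isNilpotent (p := p) fun k => ?_)⟩
  obtain ⟨n, hn⟩ := h8 k k.2.1
  refine ⟨n, Subtype.ext ?_⟩
  have : (k : G) ^ p ^ n ∈ F ⊓ N := ⟨hn, pow_mem k.2.2 _⟩
  rw [a] at this
  exact this

/-- H4 -/
theorem Core.no_normal {p : ℕ} {x : G} (h : Core p x) {H N : Subgroup G} (hH : H ≠ ⊤) (hx : x ∈ H)
    [N.Normal] (hN : N ≤ H) : N = ⊥ := by
  obtain ⟨K, k1, k2, k3⟩ := Dmax_aux_K h hH hx hN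
  have c : x ∈ Subgroup.centralizer (N : Set G) := Subgroup.mem_centralizer_iff.2 fun y hy => by
    have a : y * x * y⁻¹ * x⁻¹ ∈ K ⊓ N :=
      Subgroup.mem_inf.2 ⟨K.mul_mem (Dmax_aux_nm (k2 (hN hy)) k1) (K.inv_mem k1), by
        have := N.mul_mem hy (Subgroup.Normal.conj_mem inferInstance _ (N.inv_mem hy) x)
        simpa only [mul_assoc] using this⟩
    rw [k3, Subgroup.mem_bot, mul_inv_eq_one, mul_inv_eq_iff_eq_mul] at a
    exact a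
  by_cases e : Subgroup.centralizer (N : Set G) = ⊤
  · refine le_bot_iff.1 (h.fit ▸ le_trans (fun y hy => Subgroup.mem_center_iff.2 fun g => ?_)
      GT.center_le_fitting)
    exact (Subgroup.mem_centralizer_iff.1
      (show g ∈ Subgroup.centralizer (N : Set G) from e ▸ Subgroup.mem_top g) y hy).symm
  · obtain ⟨K', l1, -, l3⟩ := Dmax_aux_K h e c le_rfl
    have : x ∈ K' ⊓ Subgroup.centralizer (N : Set G) := ⟨l1, c⟩
    rw [l3] at this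
    exact absurd this (Dmax_aux_ne h)

theorem Core.nm_coatom {p : ℕ} {x : G} (h : Core p x) {M : Subgroup G} (hM : IsCoatom M)
    (hx : x ∈ M) : Nm M = M := by
  by_contra e
  haveI := Subgroup.normalizer_eq_top_iff.1 (hM.2 _ (lt_of_le_of_ne Subgroup.le_normalizer (Ne.symm e)))
  have := h.no_normal hM.1 hx (le_refl M)
  rw [this] at hx
  exact Dmax_aux_ne h hx

end Cfsg.Agent.F2C
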