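import Cfsg.Agent.F2C.BasicA

set_option autoImplicit false
open Cfsg

namespace Cfsg.Agent.F2C

variable {G : Type*} [Group G] [Finite G]

/-- an `x`-invariant coset `J d` of a `p'`-group contains a fixed point -/
theorem L1_aux_fix {p : ℕ} (hp : p.Prime) {x d : G} (hx : orderOf x = p) {J : Subgroup G}
    (hc : (Nat.card J).Coprime p) (h1 : ∀ j ∈ J, x⁻¹ * j * (d * x * d⁻¹) ∈ J)
    (h2 : ∀ j ∈ J, x * j * (d * x⁻¹ * d⁻¹) ∈ J) : ∃ j ∈ J, j * d ∈ Ce x := by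
  classical
  have := Fact.mk hp
  have := Fintype.ofFinite J
  let σ : Equiv.Perm J :=
    { toFun := fun j => ⟨x⁻¹ * j * (d * x * d⁻¹), h1 j j.2⟩
      invFun := fun j => ⟨x * j * (d * x⁻¹ * d⁻¹), h2 j j.2⟩
      left_inv := fun j => Subtype.ext (by simp [mul_assoc])
      right_inv := fun j => Subtype.ext (by simp [mul_assoc]) }
  have hσ : ∀ (n : ℕ) (j : J), ((σ ^ n) j : G) = (x ^ n)⁻¹ * j * (d * x ^ n * d⁻¹) := by
    intro n
    induction n with
    | zero => intro j; simp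
    | succ n ih =>
      intro j
      rw [pow_succ', Equiv.Perm.mul_apply]
      change x⁻¹ * ((σ ^ n) j : G) * (d * x * d⁻¹) = _
      rw [ih, pow_succ]
      group
  have hxp : x ^ p = 1 := hx ▸ pow_orderOf_eq_one x
  have hσp : σ ^ p ^ 1 = 1 := by
    ext j
    rw [pow_one, hσ, hxp]
    simp
  have hnd : ¬ p ∣ Fintype.card J := by
    rw [← Nat.card_eq_fintype_card]
    exact (hp.coprime_iff_not_dvd).1 hc.symm
  obtain ⟨j, hj⟩ := Equiv.Perm.exists_fixed_point_of_prime hnd hσp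
  have hj' : x⁻¹ * j * (d * x * d⁻¹) = j := congrArg Subtype.val hj
  refine ⟨j, j.2, Subgroup.mem_centralizer_singleton_iff.2 ?_⟩
  calc (j : G) * d * x = x * (x⁻¹ * j * (d * x * d⁻¹)) * d := by group
    _ = x * (j * d) := by rw [hj', mul_assoc]

theorem Core.l1 {p : ℕ} {x : G} (h : Core p x) {D : Subgroup G} (hD : DD p x D) {d : G}
    (hd : d ∈ D) : ∃ I, DD p x I ∧ I ≤ D ∧ ∃ k ∈ I, ∃ c₀ ∈ D ⊓ Ce x, d = k * c₀ ∧
      ∀ c ∈ Ce x, ∃ H : Subgroup G, H ≠ ⊤ ∧ x ∈ H ∧ I ≤ H ∧ c ∈ H := by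
  obtain ⟨hnil, hcop, hxD, -⟩ := hD
  set H₀ : Subgroup G := Subgroup.closure ({x, d * x * d⁻¹} : Set G) with hH₀
  have hx0 : x ∈ H₀ := Subgroup.subset_closure (by simp)
  have hy0 : d * x * d⁻¹ ∈ H₀ := Subgroup.subset_closure (by simp)
  have hxD1 : ∀ y ∈ D, x * y * x⁻¹ ∈ D := fun y hy => (Subgroup.mem_normalizer_iff.1 hxD y).1 hy
  have hxD2 : ∀ y ∈ D, x⁻¹ * y * x ∈ D := fun y hy => by
    have := (Subgroup.mem_normalizer_iff.1 ((Nm D).inv_mem hxD) y).1 hy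
    rwa [inv_inv] at this
  set J : Subgroup G := H₀ ⊓ D with hJ
  have hJD : J ≤ D := inf_le_right
  have hJc : (Nat.card J).Coprime p := hcop.coprime_dvd_left (Subgroup.card_dvd_of_le hJD)
  have hJn : Group.IsNilpotent J := Group.nilpotent_of_mulEquiv (Subgroup.subgroupOfEquivOfLe hJD)
  have hxJ : x ∈ Nm J := by
    refine Subgroup.mem_normalizer_iff.2 fun y => ⟨fun hy => ⟨?_, hxD1 y hy.2⟩, fun hy => ⟨?_, ?_⟩⟩
    · exact H₀.mul_mem (H₀.mul_mem hx0 hy.1) (H₀.inv_mem hx0)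
    · have := H₀.mul_mem (H₀.mul_mem (H₀.inv_mem hx0) hy.1) hx0
      simpa [mul_assoc] using this
    · have := hxD2 _ hy.2
      simpa [mul_assoc] using this
  obtain ⟨j, hj, hjd⟩ := L1_aux_fix h.prime (d := d) h.ord hJc
    (fun j hj => ⟨H₀.mul_mem (H₀.mul_mem (H₀.inv_mem hx0) hj.1) hy0, by
      have := D.mul_mem (hxD2 _ (D.mul_mem hj.2 hd)) (D.inv_mem hd)
      simpa [mul_assoc] using this⟩)
    (fun j hj => ⟨H₀.mul_mem (H₀.mul_mem hx0 hj.1) (by
      have := H₀.inv_mem hy0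
      simpa [mul_assoc] using this), by
      have := D.mul_mem (hxD1 _ (D.mul_mem hj.2 hd)) (D.inv_mem hd)
      simpa [mul_assoc] using this⟩)
  obtain ⟨hIJ, -, -, -, hdec⟩ := coprime_decomp h.prime h.ord hJc hxJ
  obtain ⟨k, hk, c, hc, hkc⟩ := hdec j⁻¹ (J.inv_mem hj)
  have hc0 : c * (j * d) ∈ Ce x := (Ce x).mul_mem hc.2 hjd
  have hdk : d = k * (c * (j * d)) := by rw [← mul_assoc, ← hkc]; group
  refine ⟨_, dd_comm h.prime h.ord hJn hJc hxJ, hIJ.trans hJD, k, hk, c * (j * d),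
    ⟨D.mul_mem (hJD hc.1) (D.mul_mem hj.2 hd), hc0⟩, hdk, fun e he => ?_⟩
  set H : Subgroup G := Subgroup.closure ({x, k * e} : Set G) with hH
  have hxH : x ∈ H := Subgroup.subset_closure (by simp)
  have hyH : k * e ∈ H := Subgroup.subset_closure (by simp)
  have e1 : c * (j * d) * x = x * (c * (j * d)) := Subgroup.mem_centralizer_singleton_iff.1 hc0
  have e2 : e * x = x * e := Subgroup.mem_centralizer_singleton_iff.1 he
  have e3 : d * x * d⁻¹ = k * e * x * (k * e)⁻¹ := by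
    generalize c * (j * d) = w at hdk e1
    rw [hdk, mul_assoc k w x, e1, mul_assoc k e x, e2]
    group
  have hle : H₀ ≤ H := by
    rw [hH₀, Subgroup.closure_le]
    rintro y (rfl | rfl)
    · exact hxH
    · rw [e3]
      exact H.mul_mem (H.mul_mem hyH hxH) (H.inv_mem hyH)
  have hIH : ⁅J, Subgroup.zpowers x⁆ ≤ H := hIJ.trans (inf_le_left.trans hle)
  refine ⟨H, h.two _, hxH, hIH, ?_⟩
  have := H.mul_mem (H.inv_mem (hIH hk)) hyH
  simpa using this

end Cfsg.Agent.F2C
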