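import Mathlib
import Cfsg.Agent.F2C.Defs
import Cfsg.Agent.F2C.BasicA
import Cfsg.Agent.F2C.BasicB
import Cfsg.Agent.F2C.Dmax
import Cfsg.Agent.F2C.L1
import Cfsg.Agent.Loc.MssSyl
import Cfsg.Agent.GT.PGroupBasic

set_option autoImplicit false
set_option linter.unusedSectionVars false
open Cfsg Cfsg.Agent.Loc Subgroup

namespace Cfsg.Agent.F2C

variable {G : Type*} [Group G] [Finite G]

theorem AlphaA_comm {x c : G} (hc : c ∈ Ce x) : c * x = x * c := mem_centralizer_singleton_iff.1 hc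

theorem AlphaA_inv {q : ℕ} {x c : G} (hc : c ∈ Ce x) {R : Subgroup G} (h : InvQ q x R) :
    InvQ q x (cj c R) := by
  refine ⟨Mss.pg_cj h.1 c, (Mss.cj_norm R c).le (Mss.mem_cj.2 ?_)⟩
  rw [mul_assoc, ← AlphaA_comm hc, inv_mul_cancel_left]
  exact h.2

theorem AlphaA_max {q : ℕ} {x c : G} (hc : c ∈ Ce x) {R : Subgroup G} (h : Maximal (InvQ q x) R) :
    Maximal (InvQ q x) (cj c R) :=
  ⟨AlphaA_inv hc h.1, fun _ h' hle => Mss.le_cj_iff_inv_le.2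
    (h.2 (AlphaA_inv (inv_mem hc) h') (Mss.cj_le_iff_le_inv.1 hle))⟩

theorem AlphaA_trans {x : G} {A B C : Subgroup G} (h1 : ∃ c ∈ Ce x, cj c A = B)
    (h2 : ∃ c ∈ Ce x, cj c B = C) : ∃ c ∈ Ce x, cj c A = C := by
  obtain ⟨c, hc, rfl⟩ := h1
  obtain ⟨d, hd, rfl⟩ := h2
  exact ⟨d * c, mul_mem hd hc, (Mss.cj_cj A c d).symm⟩

theorem AlphaA_symm {x : G} {A B : Subgroup G} (h1 : ∃ c ∈ Ce x, cj c A = B) :
    ∃ c ∈ Ce x, cj c B = A := by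
  obtain ⟨c, hc, rfl⟩ := h1
  exact ⟨c⁻¹, inv_mem hc, Mss.cj_inv_cj A c⟩

theorem AlphaA_nm {x : G} {T : Subgroup G} (h : T ≤ Ce x) : x ∈ Nm T :=
  Mss.cent_le_norm T (Mss.mem_cent.2 fun _ ha => AlphaA_comm (h ha))

theorem AlphaA_inf {x : G} {A B : Subgroup G} (hA : x ∈ Nm A) (hB : x ∈ Nm B) : x ∈ Nm (A ⊓ B) :=
  Mss.norm_inf (zpowers_le.2 hA) (zpowers_le.2 hB) (mem_zpowers x)

theorem AlphaA_sup {x : G} {A B : Subgroup G} (hA : x ∈ Nm A) (hB : x ∈ Nm B) : x ∈ Nm (A ⊔ B) :=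
  Mss.norm_sup (zpowers_le.2 hA) (zpowers_le.2 hB) (mem_zpowers x)

theorem AlphaA_cop {p q : ℕ} (hp : p.Prime) (hq : q.Prime) (hqp : q ≠ p) {R : Subgroup G}
    (h : IsPGroup q R) : (Nat.card R).Coprime p := by
  have := Fact.mk hq
  obtain ⟨n, hn⟩ := IsPGroup.iff_card.1 h
  rw [hn]
  exact Nat.Coprime.pow_left n ((Nat.coprime_primes hq hp).2 hqp)

theorem AlphaA_key {p q : ℕ} {x : G} (h : Core p x) (hq : q.Prime) (hqp : q ≠ p) {H N : Subgroup G}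
    (hH : H ≠ ⊤) (hx : x ∈ H) (hN : InvQ q x N) (hle : N ≤ H) :
    ∃ T, Mss.Syl q T (H ⊓ Ce x) ∧ N ≤ Oq q H ⊔ T := by
  have := Fact.mk hq
  obtain ⟨T, h1, h2⟩ := Mss.Syl.exists_ge (hN.1.to_le (inf_le_left : N ⊓ Ce x ≤ N))
    (inf_le_inf_right (Ce x) hle)
  refine ⟨T, h2, fun r hr => ?_⟩
  obtain ⟨k1, -, -, -, k2⟩ := coprime_decomp h.prime h.ord (AlphaA_cop h.prime hq hqp hN.1) hN.2
  obtain ⟨-, k3, -, k4, -⟩ := h.dq_spec hq hqp hH hx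
  obtain ⟨d, hd, c, hc, rfl⟩ := k2 r hr
  exact mul_mem (mem_sup_left (k3 (k4 _ (dq_comm h.prime hq hqp h.ord hN) (k1.trans hle) hd)))
    (mem_sup_right (h1 hc))

theorem AlphaA_lt {q : ℕ} (hq : q.Prime) {J R : Subgroup G} (hR : IsPGroup q R) (h : J < R) :
    J < R ⊓ Nm J := by
  have := Fact.mk hq
  have := hR.isNilpotent
  obtain ⟨y, hy, h1, h2⟩ := Cfsg.Agent.GT.PG.exists_mem_normalizer_notMem h
  exact lt_of_le_of_ne (le_inf h.le le_normalizer) fun e => h1 (e ▸ ⟨hy, h2⟩)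

theorem Core.alpha1 {p q : ℕ} {x : G} (h : Core p x) (hq : q.Prime) (hqp : q ≠ p)
    {R₁ R₂ : Subgroup G} (h1 : Maximal (InvQ q x) R₁) (h2 : Maximal (InvQ q x) R₂)
    (hne : R₁ ⊓ R₂ ≠ ⊥) : ∃ c ∈ Ce x, cj c R₁ = R₂ := by
  have := Fact.mk hq
  generalize hJ : R₁ ⊓ R₂ = J at hne
  induction J using WellFoundedGT.induction generalizing R₁ R₂ with
  | ind J ih =>
  by_cases e1 : R₁ ≤ R₂
  · exact ⟨1, one_mem _, (Mss.cj_one R₁).trans (le_antisymm e1 (h1.2 h2.1 e1))⟩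
  have e2 : ¬ R₂ ≤ R₁ := fun k => e1 (h2.2 h1.1 k)
  have l1 : J < R₁ := hJ ▸ inf_lt_left.2 e1
  have l2 : J < R₂ := hJ ▸ inf_lt_right.2 e2
  have hH : Nm J ≠ ⊤ := h.nm_ne_top (h1.1.1.to_le l1.le).isNilpotent hne
  have hx : x ∈ Nm J := hJ ▸ AlphaA_inf h1.1.2 h2.1.2
  have iv : ∀ {R : Subgroup G}, InvQ q x R → InvQ q x (R ⊓ Nm J) := fun hR =>
    ⟨hR.1.to_le inf_le_left, AlphaA_inf hR.2 (le_normalizer hx)⟩
  obtain ⟨T₁, s1, t1⟩ := AlphaA_key h hq hqp hH hx (iv h1.1) inf_le_right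
  obtain ⟨T₂, s2, t2⟩ := AlphaA_key h hq hqp hH hx (iv h2.1) inf_le_right
  obtain ⟨c, hc, e⟩ := s1.conj_eq s2
  obtain ⟨-, o2, o3⟩ := oq_spec q (Nm J)
  obtain ⟨R', m, hm⟩ := exists_max_ge (InvQ q x) (D := Oq q (Nm J) ⊔ T₁)
    ⟨Mss.pg_sup' o3 s1.pg ((s1.le.trans inf_le_left).trans o2),
      AlphaA_sup (o2 hx) (AlphaA_nm (s1.le.trans inf_le_right))⟩
  have k1 : J < R₁ ⊓ R' := (AlphaA_lt hq h1.1.1 l1).trans_le (le_inf inf_le_left (t1.trans hm))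
  have k2 : J < cj c R' ⊓ R₂ := (AlphaA_lt hq h2.1.1 l2).trans_le (le_inf (t2.trans (sup_le
    ((Mss.cj_of_norm (o2 hc.1)).ge.trans (Mss.cj_mono c (le_sup_left.trans hm)))
    (e.ge.trans (Mss.cj_mono c (le_sup_right.trans hm))))) inf_le_left)
  exact AlphaA_trans (AlphaA_trans (ih _ k1 h1 m rfl (ne_bot_of_gt k1)) ⟨c, hc.2, rfl⟩)
    (ih _ k2 (AlphaA_max hc.2 m) h2 rfl (ne_bot_of_gt k2))

theorem Core.alpha2 {p q : ℕ} {x : G} (h : Core p x) (hq : q.Prime) (hqp : q ≠ p)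
    (hZ : Oq q (Ce x) ≠ ⊥) {R₁ R₂ : Subgroup G} (h1 : Maximal (InvQ q x) R₁)
    (h2 : Maximal (InvQ q x) R₂) : ∃ c ∈ Ce x, cj c R₁ = R₂ := by
  have := Fact.mk hq
  obtain ⟨o1, o2, o3⟩ := oq_spec q (Ce x)
  have iZ : InvQ q x (Oq q (Ce x)) := ⟨o3, AlphaA_nm o1⟩
  obtain ⟨R₀, m0, hm0⟩ := exists_max_ge (InvQ q x) iZ
  have key : ∀ {R : Subgroup G}, Maximal (InvQ q x) R → ∃ c ∈ Ce x, cj c R = R₀ := fun {R} hR => by
    have fin : ∀ W, InvQ q x W → R ⊓ W ≠ ⊥ → W ⊓ R₀ ≠ ⊥ → ∃ c ∈ Ce x, cj c R = R₀ := fun W hW a b => by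
      obtain ⟨R', m, hm⟩ := exists_max_ge (InvQ q x) hW
      exact AlphaA_trans (h.alpha1 hq hqp hR m (ne_bot_of_le_ne_bot a (inf_le_inf_left R hm)))
        (h.alpha1 hq hqp m m0 (ne_bot_of_le_ne_bot b (inf_le_inf_right R₀ hm)))
    by_cases e : R ⊓ Ce x = ⊥
    · have hb : R ≠ ⊥ := fun k => hZ (eq_bot_iff.2 (k ▸ hR.2 iZ (k ▸ bot_le)))
      obtain ⟨⟨d, hd⟩, d1⟩ := (ne_bot_iff_exists_ne_one).1 hb
      obtain ⟨⟨z, hz⟩, z1⟩ := (ne_bot_iff_exists_ne_one).1 hZ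
      obtain ⟨I, i1, i2, k, hk, c₀, hc₀, e0, i3⟩ :=
        h.l1 ((dq_of_fpf h.prime hq hqp h.ord hR.1 e).dd h.prime hq hqp) hd
      obtain ⟨H, hH, hx, hI, hzH⟩ := i3 z (o1 hz)
      obtain ⟨k1, -, -, k4, -⟩ := h.dq_spec hq hqp hH hx
      rw [e, mem_bot] at hc₀
      rw [hc₀, mul_one] at e0
      have dD : d ∈ Dq q x H := k4 I ⟨hR.1.1.to_le i2, i1.2.2.1, i1.2.2.2⟩ hI (e0 ▸ hk)
      refine fin (Dq q x H ⊔ zpowers z) ⟨Mss.pg_sup' k1.1 (o3.to_le (zpowers_le.2 hz))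
        (zpowers_le.2 (norm_parts p q (o1 hz) (le_normalizer hzH)).2.1),
        AlphaA_sup k1.2.1 (AlphaA_nm (zpowers_le.2 (o1 hz)))⟩ (fun b => d1 ?_) fun b => z1 ?_
      · exact Subtype.ext (mem_bot.1 (b.le ⟨hd, mem_sup_left dD⟩))
      · exact Subtype.ext (mem_bot.1 (b.le ⟨mem_sup_right (mem_zpowers z), hm0 hz⟩))
    · exact fin (Oq q (Ce x) ⊔ R ⊓ Ce x) ⟨Mss.pg_sup' o3 (hR.1.1.to_le inf_le_left)
        (inf_le_right.trans o2), AlphaA_nm (sup_le o1 inf_le_right)⟩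
        (ne_bot_of_le_ne_bot e (le_inf inf_le_left le_sup_right))
        (ne_bot_of_le_ne_bot hZ (le_inf le_sup_left hm0))
  exact AlphaA_trans (key h1) (AlphaA_symm (key h2))

end Cfsg.Agent.F2C
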