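import Cfsg.Agent.F2C.Defs
import Cfsg.Agent.F2C.BasicA
import Cfsg.Agent.F2C.Dmax
import Cfsg.Agent.F2C.L1
import Cfsg.Agent.F2C.AlphaA
import Cfsg.Agent.GT.Zipper
import Cfsg.Agent.GT.PGroupBasic

/-! If `O_q(C(x)) ≠ 1` then `𝒟_q(x)` has a greatest member. -/

set_option autoImplicit false
open Cfsg

namespace Cfsg.Agent.F2C

variable {G : Type*} [Group G] [Finite G]

/-- Baer–Suzuki inside `C(x)` -/
theorem mem_oq_of_pairs {q : ℕ} (hq : q.Prime) {C : Subgroup G} {w : G} (hw : w ∈ C)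
    (h : ∀ c ∈ C, IsPGroup q (Subgroup.closure ({w, c * w * c⁻¹} : Set G))) : w ∈ Oq q C := by
  have := Fact.mk hq
  exact le_oq (GT.pCoreOf_le C) (GT.le_normalizer_pCoreOf C) (GT.isPGroup_pCoreOf q C)
    (GT.baer_suzuki_of (X := Subgroup.zpowers w) (Subgroup.zpowers_le.2 hw)
      (fun g hg => GT.zpowers_sup_map_conj w g ▸ h g hg) (Subgroup.mem_zpowers w))

omit [Finite G] in
theorem AlphaB_inf {q : ℕ} {x : G} {R H : Subgroup G} (hR : InvQ q x R) (hH : x ∈ Nm H) : InvQ q x (R ⊓ H) :=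
  ⟨hR.1.to_le inf_le_left, Subgroup.inf_normalizer_le_normalizer_inf ⟨hR.2, hH⟩⟩

theorem AlphaB_cop {p q : ℕ} (hp : p.Prime) (hq : q.Prime) (hqp : q ≠ p) {R : Subgroup G} (hR : IsPGroup q R) :
    (Nat.card R).Coprime p := by
  have := Fact.mk hq
  obtain ⟨n, hn⟩ := hR.exists_card_eq
  exact hn ▸ ((Nat.coprime_primes hq hp).2 hqp).pow_left n

theorem Core.alpha {p q : ℕ} {x : G} (h : Core p x) (hq : q.Prime) (hqp : q ≠ p)
    (hZ : Oq q (Ce x) ≠ ⊥) : TypeU q x := by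
  have := Fact.mk hq
  have xC : x ∈ Ce x := Subgroup.mem_centralizer_singleton_iff.2 rfl
  obtain ⟨-, z2, z3⟩ := oq_spec q (Ce x)
  obtain ⟨E, hE, hZE⟩ := exists_max_ge (fun R => IsPGroup q R ∧ Ce x ≤ Nm R) ⟨z3, z2⟩
  obtain ⟨E1, E2⟩ := hE.prop
  have hH : Nm E ≠ ⊤ := h.nm_ne_top E1.isNilpotent fun e => hZ (le_bot_iff.1 (e ▸ hZE))
  have xH : x ∈ Nm E := E2 xC
  have ER : ∀ R, Maximal (InvQ q x) R → E ≤ R := fun R hR e he => by
    obtain ⟨R₀, h0, h1⟩ := exists_max_ge (InvQ q x) (D := E) ⟨E1, xH⟩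
    obtain ⟨c, hc, rfl⟩ := h.alpha2 hq hqp hZ h0 hR
    have := h1 (GT.conj_mem_of_mem_normalizer (inv_mem (E2 hc)) he)
    exact ⟨_, this, by simp [mul_assoc]⟩
  obtain ⟨d1, d2, -, d4, -⟩ := h.dq_spec hq hqp hH xH
  have OE : Oq q (Nm E) ≤ E := by
    obtain ⟨-, o2, o3⟩ := oq_spec q (Nm E)
    exact hE.le_of_ge ⟨o3, E2.trans o2⟩ (le_oq Subgroup.le_normalizer le_rfl E1)
  refine ⟨_, d1, fun Q hQ => d4 Q hQ ?_⟩
  obtain ⟨R, hR, hQR⟩ := exists_max_ge (InvQ q x) (D := Q) ⟨hQ.1, hQ.2.1⟩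
  refine hQR.trans (by_contra fun hn => ?_)
  have hT : InvQ q x (R ⊓ Nm E) := AlphaB_inf hR.prop (Subgroup.le_normalizer xH)
  have CT : ∀ c ∈ R, c ∈ Ce x → c ∈ R ⊓ Nm E := fun c a b => ⟨a, E2 b⟩
  have ET : E ≤ R ⊓ Nm E := le_inf (ER R hR) Subgroup.le_normalizer
  have dec : ∀ t ∈ R ⊓ Nm E, ∃ e ∈ E, ∃ w ∈ R, w ∈ Ce x ∧ t = e * w := fun t ht => by
    obtain ⟨c1, -, -, -, c5⟩ := coprime_decomp h.prime h.ord (AlphaB_cop h.prime hq hqp hT.1) hT.2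
    obtain ⟨d, hd, w, hw, e⟩ := c5 t ht
    exact ⟨d, OE (d2 (d4 _ (dq_comm h.prime hq hqp h.ord hT) (c1.trans inf_le_right) hd)), w, hw.1.1, hw.2, e⟩
  have := hR.prop.1.isNilpotent
  obtain ⟨u, u1, u2, u3⟩ := GT.PG.exists_mem_normalizer_notMem (N := R ⊓ Nm E) (M := R)
    (lt_of_le_of_ne inf_le_left fun e => hn (inf_eq_left.1 e))
  have TE : ∀ k ∈ R, k ∈ Nm E → k ∈ R ⊓ Nm E := fun k a b => ⟨a, b⟩
  generalize R ⊓ Nm E = T at hT CT ET dec u2 u3 TE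
  have hU : InvQ q x (R ⊓ Nm T) := AlphaB_inf hR.prop (Subgroup.le_normalizer hT.2)
  obtain ⟨c1, -, -, -, c5⟩ := coprime_decomp h.prime h.ord (AlphaB_cop h.prime hq hqp hU.1) hU.2
  obtain ⟨d, hd, c, hc, rfl⟩ := c5 u ⟨u1, u3⟩
  obtain ⟨I, i1, i2, k, hk, c₀, hc₀, rfl, i3⟩ := h.l1 ((dq_comm h.prime hq hqp h.ord hU).dd h.prime hq hqp) hd
  have kU := c1 (i2 hk)
  have hI : DQ q x I := ⟨hU.1.to_le (i2.trans c1), i1.2.2⟩
  refine u2 (mul_mem (mul_mem (TE k kU.1 (Subgroup.mem_normalizer_fintype fun e he => ?_))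
    (CT _ (c1 hc₀.1).1 hc₀.2)) (CT _ hc.1.1 hc.2))
  obtain ⟨e', he', w, w1, w2, hw⟩ := dec _ (GT.conj_mem_of_mem_normalizer kU.2 (ET he))
  rw [hw]
  refine mul_mem he' (hZE (mem_oq_of_pairs hq w2 fun g hg => ?_))
  have cC : g * w * g⁻¹ ∈ Ce x := mul_mem (mul_mem hg w2) (inv_mem hg)
  obtain ⟨H, H1, H2, H3, H4⟩ := i3 _ cC
  obtain ⟨-, f2, -, f4, -⟩ := h.dq_spec hq hqp H1 H2
  obtain ⟨-, o2, o3⟩ := oq_spec q H
  have pz : IsPGroup q (Subgroup.zpowers (g * w * g⁻¹)) := by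
    have := (hR.prop.1.to_le (Subgroup.zpowers_le.2 w1)).map (MulAut.conj g).toMonoidHom
    rwa [MonoidHom.map_zpowers] at this
  obtain ⟨S, hS, s1⟩ := exists_max_ge (InvQ q x) (D := Oq q H ⊔ Subgroup.zpowers (g * w * g⁻¹))
    ⟨o3.to_sup_of_normal_left' pz (Subgroup.zpowers_le.2 (o2 H4)),
      Subgroup.normalizer_inf_normalizer_le_normalizer_sup _ _ ⟨o2 H2, Subgroup.mem_normalizer_fintype fun y hy => by
        have : y ∈ Ce x := Subgroup.zpowers_le.2 cC hy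
        rwa [← Subgroup.mem_centralizer_singleton_iff.1 this, mul_inv_cancel_right]⟩⟩
  have kS : k ∈ S := s1 (Subgroup.mem_sup_left (f2 (f4 I hI H3 hk)))
  have wS : w ∈ S := by
    have := mul_mem (mul_mem kS (ER S hS he)) (inv_mem kS)
    rw [hw] at this
    exact (Subgroup.mul_mem_cancel_left S (ER S hS he')).1 this
  refine hS.prop.1.to_le ((Subgroup.closure_le _).2 ?_)
  rintro _ (rfl | rfl)
  · exact wS
  · exact s1 (Subgroup.mem_sup_right (Subgroup.mem_zpowers _))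

end Cfsg.Agent.F2C
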