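import Cfsg.Agent.F2C.Defs
import Cfsg.Agent.F2C.BasicA
import Cfsg.Agent.F2C.Dmax
import Cfsg.Agent.F2C.L1
import Cfsg.Agent.F2C.AlphaB
import Cfsg.Agent.Flv.FixPt

set_option autoImplicit false
open Cfsg
open scoped commutatorElement

namespace Cfsg.Agent.F2C

variable {G : Type*} [Group G] [Finite G]

theorem Beta1_aux {p q : ℕ} {x : G} (h : Core p x) (hq : q.Prime) (hqp : q ≠ p)
    (hZ : Oq q (Ce x) = ⊥) {I : Subgroup G} (hI : DQ q x I)
    (hH : ∀ c ∈ Ce x, ∃ H : Subgroup G, H ≠ ⊤ ∧ x ∈ H ∧ I ≤ H ∧ c ∈ H) {y : G} (hy : y ∈ I)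
    (hyC : y ∈ Ce x) : y = 1 := by
  haveI := Fact.mk hq
  rw [← Subgroup.mem_bot, ← hZ]
  refine mem_oq_of_pairs hq hyC fun g hg => ?_
  obtain ⟨H, h1, h2, h3, h4⟩ := hH (g * y * g⁻¹)
    ((Ce x).mul_mem ((Ce x).mul_mem hg hyC) ((Ce x).inv_mem hg))
  obtain ⟨-, h5, -, h6, -⟩ := h.dq_spec hq hqp h1 h2
  obtain ⟨-, h7, h8⟩ := oq_spec q H
  have h9 : IsPGroup q (Subgroup.zpowers (g * y * g⁻¹)) := by
    rintro ⟨_, m, rfl⟩
    obtain ⟨n, hn⟩ := hI.1 ⟨y, hy⟩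
    refine ⟨n, Subtype.ext ?_⟩
    have e : y ^ q ^ n = 1 := congrArg Subtype.val hn
    show ((g * y * g⁻¹) ^ m) ^ q ^ n = 1
    rw [← zpow_natCast, ← zpow_mul, mul_comm, zpow_mul, zpow_natCast, conj_pow, e]
    simp
  refine (h8.to_sup_of_normal_left' h9 ((Subgroup.zpowers_le.2 h4).trans h7)).to_le ?_
  rw [Subgroup.closure_le]
  rintro z (rfl | rfl)
  · exact Subgroup.mem_sup_left (h5 (h6 I hI h3 hy))
  · exact Subgroup.mem_sup_right (Subgroup.mem_zpowers _)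

theorem Core.beta1 {p q : ℕ} {x : G} (h : Core p x) (hq : q.Prime) (hqp : q ≠ p) (hp : p ≠ 2)
    (hZ : Oq q (Ce x) = ⊥) : TypeF q x := by
  intro D hD
  haveI := Fact.mk hq
  have hDD := hD.dd h.prime hq hqp
  have hcard : Nat.card (Subgroup.zpowers x) = p := by rw [Nat.card_zpowers, h.ord]
  have hs : Group.IsSolvable D := by
    haveI := hDD.1
    infer_instance
  have key := Flv.commutator_inf_centralizer_eq_fx (P := Subgroup.zpowers x) (H := D) h.prime hp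
    hcard.dvd (Subgroup.zpowers_le.2 hD.2.1) hs (by rw [hcard]; exact hDD.2.1.symm)
  have hC : Subgroup.centralizer (Subgroup.zpowers x : Set G) = Ce x := by
    rw [Subgroup.zpowers_eq_closure, Subgroup.centralizer_closure]
  rw [hD.2.2, hC] at key
  rw [key, eq_bot_iff]
  refine Flv.fx_le fun d hd => ?_
  obtain ⟨I, hI, hID, k, hk, c, hc, rfl, hH⟩ := h.l1 hDD hd
  have h1 : Flv.cm (Subgroup.zpowers x) (k * c) ≤ I := by
    refine Flv.cm_le fun a ha => ?_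
    have e1 : a * c = c * a := (hC.ge hc.2) a ha
    have e2 : a ∈ Nm I := Subgroup.zpowers_le.2 hI.2.2.1 ha
    have e3 : ⁅k * c, a⁆ = k * (a * k⁻¹ * a⁻¹) := by
      rw [commutatorElement_def, mul_assoc k c a, ← e1]
      group
    rw [e3]
    exact I.mul_mem hk ((Subgroup.mem_normalizer_iff.1 e2 _).1 (I.inv_mem hk))
  intro y hy
  rw [hC] at hy
  exact Subgroup.mem_bot.2
    (Beta1_aux h hq hqp hZ ⟨hD.1.to_le hID, hI.2.2.1, hI.2.2.2⟩ hH (h1 hy.1) hy.2)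

end Cfsg.Agent.F2C
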