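import Cfsg.Agent.F2C.Defs
import Cfsg.Agent.F2C.BasicA
import Cfsg.Agent.F2C.BasicB
import Cfsg.Agent.F2C.Dmax
import Cfsg.Agent.F2C.L1
import Cfsg.Agent.Loc.IsolatedTwo
import Cfsg.Agent.GT.CoprimeGen
import Cfsg.Agent.GT.Fitting
import Cfsg.Agent.GT.PPrimeCore
import Cfsg.Agent.Inv.SPECore
import Cfsg.Agent.S0205

set_option autoImplicit false
open Cfsg

namespace Cfsg.Agent.F2C

open scoped commutatorElement

variable {G : Type*} [Group G] [Finite G]

omit [Finite G] in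
theorem Beta2_mem_ce {a b : G} : b ∈ Ce a ↔ Commute b a := Subgroup.mem_centralizer_singleton_iff

omit [Finite G] in
theorem Beta2_ne_one {x : G} (h : Core 2 x) : x ≠ 1 := fun e => by
  have := h.ord
  rw [e, orderOf_one] at this
  omega

omit [Finite G] in
theorem Beta2_sq {x : G} (h : Core 2 x) : x * x = 1 := by
  rw [← pow_two, ← h.ord, pow_orderOf_eq_one]

/-- By the `Z*`-theorem, `x` commutes with a different conjugate. -/
theorem Beta2_conj {x : G} (h : Core 2 x) : ∃ g : G, Commute x (g * x * g⁻¹) ∧ g * x * g⁻¹ ≠ x := by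
  by_contra hn
  have hi : IsIsolated x := fun g hg => by_contra fun e => hn ⟨g, hg, e⟩
  have hz := Loc.IsIsolated.inZStar_two hi ⟨1, by rw [h.ord, pow_one]⟩
  have hb : pPrimeCore 2 G = ⊥ := by
    by_contra hb
    haveI : (pPrimeCore 2 G).Characteristic := GT.pPrimeCore_characteristic
    haveI : Group.IsSolvable (pPrimeCore 2 G) :=
      S0205.result (Nat.coprime_two_right.1 (GT.coprime_card_pPrimeCore 2))
    exact GT.inf_fitting_ne_bot hb (by rw [h.fit, inf_bot_eq])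
  refine h.ce_ne_top (Beta2_ne_one h) (eq_top_iff.2 fun g _ => Beta2_mem_ce.2 ?_)
  have := hz g
  rw [hb, Subgroup.mem_bot, mul_inv_eq_one, mul_inv_eq_iff_eq_mul] at this
  exact this

theorem Beta2_aux {q : ℕ} {a b : G} (ha : Core 2 a) (hb : Core 2 b) (hq : q.Prime) (hqp : q ≠ 2)
    (hab : Commute b a) (hZ : Oq q (Ce a) = ⊥) {Y : Subgroup G} (hY : IsPGroup q Y)
    (hn : b ∈ Nm Y) : Y ⊓ Ce a ≤ Ce b := by
  have hba : b ∈ Ce a := Beta2_mem_ce.2 hab
  have hI : InvQ q b (Y ⊓ Ce a) :=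
    ⟨hY.to_le inf_le_left, Subgroup.inf_normalizer_le_normalizer_inf ⟨hn, Subgroup.le_normalizer hba⟩⟩
  have h1 := dq_comm Nat.prime_two hq hqp hb.ord hI
  obtain ⟨-, h2, -, h3, -⟩ := hb.dq_spec hq hqp (hb.ce_ne_top (Beta2_ne_one ha)) hba
  have h4 : ⁅Y ⊓ Ce a, Subgroup.zpowers b⁆ ≤ Ce a := by
    refine Subgroup.commutator_le.2 fun y hy z hz => ?_
    have hz' : z ∈ Ce a := (Subgroup.zpowers_le.2 hba) hz
    exact mul_mem (mul_mem (mul_mem hy.2 hz') (inv_mem hy.2)) (inv_mem hz')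
  have h5 : ⁅Y ⊓ Ce a, Subgroup.zpowers b⁆ = ⊥ := le_bot_iff.1 (hZ ▸ (h3 _ h1 h4).trans h2)
  intro y hy
  have h6 := Subgroup.commutator_eq_bot_iff_le_centralizer.1 h5 hy
  exact Beta2_mem_ce.2 (Subgroup.mem_centralizer_iff.1 h6 b (Subgroup.mem_zpowers b)).symm

omit [Finite G] in
theorem Beta2_four {x t : G} (hx : x * x = 1) (ht : t * t = 1) (hc : Commute x t) :
    ∀ a ∈ Subgroup.closure ({x, t} : Set G), a = 1 ∨ a = x ∨ a = t ∨ a = x * t := by
  have key : ∀ s ∈ ({x, t} : Set G), ∀ y, (y = 1 ∨ y = x ∨ y = t ∨ y = x * t) →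
      (s * y = 1 ∨ s * y = x ∨ s * y = t ∨ s * y = x * t) := by
    rintro s (hs | hs) y (hy | hy | hy | hy) <;> rw [hs, hy]
    · exact .inr (.inl (mul_one _))
    · exact .inl hx
    · exact .inr (.inr (.inr rfl))
    · exact .inr (.inr (.inl (by rw [← mul_assoc, hx, one_mul])))
    · exact .inr (.inr (.inl (mul_one _)))
    · exact .inr (.inr (.inr hc.eq.symm))
    · exact .inl ht
    · exact .inr (.inl (by rw [hc.eq, ← mul_assoc, ht, one_mul]))
  intro a ha
  induction ha using Subgroup.closure_induction_left with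
  | one => exact .inl rfl
  | mul_left s hs y _ ih => exact key s hs y ih
  | inv_mul_cancel s hs y _ ih =>
    have e : s⁻¹ = s := by
      rcases hs with hs | hs <;> rw [hs]
      · exact inv_eq_of_mul_eq_one_right hx
      · exact inv_eq_of_mul_eq_one_right ht
    rw [e]
    exact key s hs y ih

theorem Core.beta2 {q : ℕ} {x : G} (h : Core 2 x) (hq : q.Prime) (hqp : q ≠ 2)
    (hZ : Oq q (Ce x) = ⊥) : TypeU q x := by
  classical
  haveI : Fact q.Prime := ⟨hq⟩
  obtain ⟨g, hc, hne⟩ := Beta2_conj h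
  have ht := h.conj g
  have hZt : Oq q (Ce (g * x * g⁻¹)) = ⊥ := by
    have e : Ce (g * x * g⁻¹) = cj g (Ce x) := by
      ext y
      rw [Subgroup.mem_map_equiv, Beta2_mem_ce, Beta2_mem_ce, MulAut.conj_symm_apply]
      constructor
      · intro k
        have := k.conj g⁻¹
        simpa [mul_assoc] using this
      · intro k
        have := k.conj g
        simpa [mul_assoc] using this
    rw [e, oq_conj, hZ]
    exact Subgroup.map_bot _
  generalize g * x * g⁻¹ = t at hc hne ht hZt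
  have xx := Beta2_sq h
  have tt := Beta2_sq ht
  have hu : x * t ≠ 1 := fun e => hne (by rw [← one_mul t, ← xx, mul_assoc, e, mul_one])
  have hxu : x ∈ Ce (x * t) := Beta2_mem_ce.2 ((Commute.refl x).mul_right hc)
  have hY : ∀ Y : Subgroup G, IsPGroup q Y → x ∈ Nm Y → t ∈ Nm Y → Y ≤ Ce (x * t) := by
    intro Y hY nx nt
    have hn : t ∉ Subgroup.zpowers x := by
      intro k
      rw [mem_zpowers_iff_mem_range_orderOf, h.ord] at k
      obtain ⟨i, hi, e⟩ := Finset.mem_image.1 k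
      have hi' := Finset.mem_range.1 hi
      interval_cases i
      · exact Beta2_ne_one ht (by simpa using e.symm)
      · exact hne (by simpa using e.symm)
    obtain ⟨p1, p2, p3⟩ := Inv.SE.closure_pair_noncyclic h.ord ht.ord hc.eq hn
    refine GT.CopAct.le_of_centralizer_elt_le p2 p3
      ((Subgroup.closure_le _).2 (by rintro s (rfl | rfl) <;> assumption))
      (IsPGroup.coprime_card_of_ne 2 q (Ne.symm hqp) _ _ p1 hY) fun a ha a1 y hy => ?_
    rcases Beta2_four xx tt hc a ha with e | e | e | e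
    · exact absurd e a1
    · rw [e] at hy
      exact Beta2_mem_ce.2 ((Beta2_mem_ce.1 hy.2).mul_right
        (Beta2_mem_ce.1 (Beta2_aux h ht hq hqp hc.symm hZ hY nt hy)))
    · rw [e] at hy
      exact Beta2_mem_ce.2 ((Beta2_mem_ce.1 (Beta2_aux ht h hq hqp hc hZt hY nx hy)).mul_right
        (Beta2_mem_ce.1 hy.2))
    · rw [e] at hy
      exact hy.2
  obtain ⟨k1, -, -, k2, -⟩ := h.dq_spec hq hqp (h.ce_ne_top hu) hxu
  refine ⟨_, k1, fun D hD => k2 D hD ?_⟩
  rw [← hD.2.2]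
  refine Subgroup.commutator_le.2 ?_
  rintro d hd _ ⟨n, rfl⟩
  obtain ⟨I, hI, hID, k, hk, c, hc0, rfl, hH⟩ := h.l1 (hD.dd Nat.prime_two hq hqp) hd
  obtain ⟨H, hH, hx, hIH, htH⟩ := hH t (Beta2_mem_ce.2 hc.symm)
  obtain ⟨-, m1, -, m2, -⟩ := h.dq_spec hq hqp hH hx
  obtain ⟨-, o2, o3⟩ := oq_spec q H
  have hku : k ∈ Ce (x * t) :=
    hY _ o3 (o2 hx) (o2 htH) (m1 (m2 I ⟨hD.1.to_le hID, hI.2.2.1, hI.2.2.2⟩ hIH hk))
  have e : ⁅k * c, x ^ n⁆ = k * x ^ n * k⁻¹ * (x ^ n)⁻¹ := by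
    rw [commutatorElement_def, mul_assoc k c, ((Beta2_mem_ce.1 hc0.2).zpow_right n).eq]
    group
  show ⁅k * c, x ^ n⁆ ∈ _
  rw [e]
  exact mul_mem (mul_mem (mul_mem hku (zpow_mem hxu n)) (inv_mem hku)) (inv_mem (zpow_mem hxu n))

end Cfsg.Agent.F2C
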