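import Cfsg.Agent.F2C.Defs
import Cfsg.Agent.F2C.BasicA
import Cfsg.Agent.F2C.Dmax

set_option autoImplicit false
set_option linter.unusedSectionVars false
set_option linter.unusedVariables false
open Cfsg

namespace Cfsg.Agent.F2C

variable {G : Type*} [Group G] [Finite G]

/-- an element killed by coprime exponents modulo `N` lies in `N` -/
theorem L5_aux_mem {Γ : Type*} [Group Γ] {N : Subgroup Γ} {g : Γ} {m n : ℕ} (hc : m.Coprime n)
    (h1 : g ^ m ∈ N) (h2 : g ^ n ∈ N) : g ∈ N := by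
  have e : ((m : ℤ) * Nat.gcdA m n + (n : ℤ) * Nat.gcdB m n) = 1 := by
    rw [← Nat.gcd_eq_gcd_ab, hc.gcd_eq_one]; rfl
  have : g = (g ^ m) ^ Nat.gcdA m n * (g ^ n) ^ Nat.gcdB m n := by
    rw [← zpow_natCast, ← zpow_natCast, ← zpow_mul, ← zpow_mul, ← zpow_add, e, zpow_one]
  rw [this]
  exact N.mul_mem (N.zpow_mem h1 _) (N.zpow_mem h2 _)

/-- if `x ∈ N ⊴ Γ = ⟨x,a⟩` and `a ^ p = 1` then every `p`-th power lies in `N` -/
theorem L5_aux_pow {Γ : Type*} [Group Γ] {p : ℕ} {x a : Γ}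
    (hgen : Subgroup.closure ({x, a} : Set Γ) = ⊤) (ha : a ^ p = 1) (N : Subgroup Γ) [N.Normal]
    (hx : x ∈ N) (g : Γ) : g ^ p ∈ N := by
  have hle : (⊤ : Subgroup Γ) ≤ (Subgroup.zpowers ((a : Γ) : Γ ⧸ N)).comap (QuotientGroup.mk' N) := by
    rw [← hgen, Subgroup.closure_le]
    rintro y (rfl | rfl)
    · show QuotientGroup.mk' N y ∈ Subgroup.zpowers ((a : Γ) : Γ ⧸ N)
      have : QuotientGroup.mk' N y = 1 := (QuotientGroup.eq_one_iff y).2 hx
      rw [this]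
      exact one_mem _
    · exact Subgroup.mem_zpowers _
  obtain ⟨k, hk⟩ := hle (Subgroup.mem_top g)
  have hk' : ((a : Γ) : Γ ⧸ N) ^ k = (g : Γ ⧸ N) := hk
  rw [← QuotientGroup.eq_one_iff, QuotientGroup.mk_pow, ← hk', ← zpow_natCast, ← zpow_mul,
    mul_comm, zpow_mul, zpow_natCast, ← QuotientGroup.mk_pow, ha, QuotientGroup.mk_one, one_zpow]

/-- a normal Sylow subgroup centralised by `x` in `⟨x,a⟩` is trivial -/
theorem L5_aux_bot {Γ : Type*} [Group Γ] [Finite Γ] {p q : ℕ} [Fact q.Prime] (hc : p.Coprime q)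
    {x a : Γ} (hgen : Subgroup.closure ({x, a} : Set Γ) = ⊤) (hxp : x ^ p = 1) (ha : a ^ p = 1)
    (S : Sylow q Γ) [hS : (S : Subgroup Γ).Normal]
    (hx : x ∈ Subgroup.centralizer ((S : Subgroup Γ) : Set Γ)) : (S : Subgroup Γ) = ⊥ := by
  set C := Subgroup.centralizer ((S : Subgroup Γ) : Set Γ) with hC
  have hCn : C.Normal := inferInstance
  have hSC : (S : Subgroup Γ) ≤ C := by
    intro s hs
    obtain ⟨n, hn⟩ := S.isPGroup' ⟨s, hs⟩
    have hn' : s ^ q ^ n = 1 := congrArg Subtype.val hn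
    exact L5_aux_mem (hc.pow_right n) (L5_aux_pow hgen ha C hx s) (hn' ▸ one_mem _)
  let P : Sylow q C := S.subtype hSC
  have hP : Subgroup.normalizer (P : Set C) ≤ Subgroup.centralizer (P : Set C) := by
    intro c _ s hs
    exact Subtype.ext (c.2 s.1 hs)
  let V := MonoidHom.transferSylow P hP
  have hV : ¬ q ∣ Nat.card V.ker := MonoidHom.not_dvd_card_ker_transferSylow P hP
  have hVc : (Nat.card V.ker).Coprime q :=
    ((Nat.Prime.coprime_iff_not_dvd Fact.out).2 hV).symm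
  have key : ∀ (c : C) (m : ℕ), m.Coprime q → c ^ m = 1 → c ∈ V.ker := by
    intro c m hm h
    obtain ⟨n, hn⟩ := P.isPGroup' (V c)
    have h1 : (V c) ^ m = 1 := by rw [← map_pow, h, map_one]
    exact (Subgroup.mem_bot.1 (L5_aux_mem (N := ⊥) (hm.pow_right n) (Subgroup.mem_bot.2 h1)
      (Subgroup.mem_bot.2 hn)))
  let L : Subgroup Γ := V.ker.map C.subtype
  have hLpow : ∀ l ∈ L, l ^ Nat.card V.ker = 1 := by
    rintro _ ⟨l, hl, rfl⟩
    have : (⟨l, hl⟩ : V.ker) ^ Nat.card V.ker = 1 := pow_card_eq_one'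
    have h2 : l ^ Nat.card V.ker = 1 := congrArg Subtype.val this
    rw [← map_pow, h2, map_one]
  have hLn : L.Normal := by
    refine ⟨fun l hl g => ?_⟩
    have hlC : l ∈ C := Subgroup.map_subtype_le _ hl
    refine ⟨⟨g * l * g⁻¹, hCn.conj_mem l hlC g⟩, key _ _ hVc (Subtype.ext ?_), rfl⟩
    show (g * l * g⁻¹) ^ Nat.card V.ker = 1
    rw [conj_pow, hLpow l hl, mul_one, mul_inv_cancel]
  have hxL : x ∈ L := ⟨⟨x, hx⟩, key _ p hc (Subtype.ext hxp), rfl⟩
  rw [eq_bot_iff]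
  intro s hs
  obtain ⟨n, hn⟩ := S.isPGroup' ⟨s, hs⟩
  have hn' : s ^ q ^ n = 1 := congrArg Subtype.val hn
  have hsL : s ∈ L := L5_aux_mem (hc.pow_right n) (L5_aux_pow hgen ha L hxL s) (hn' ▸ one_mem _)
  exact L5_aux_mem (N := ⊥) (hVc.pow_right n) (Subgroup.mem_bot.2 (hLpow s hsL))
    (Subgroup.mem_bot.2 hn')

/-- Sylow subgroups of an `N`-by-`p` group are conjugate under `N` -/
theorem L5_aux_conj {Γ : Type*} [Group Γ] [Finite Γ] {p : ℕ} [Fact p.Prime] (N : Subgroup Γ)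
    [N.Normal] (hN : ∀ k : Γ, ∃ n : ℕ, k ^ p ^ n ∈ N) (P P' : Sylow p Γ) :
    ∃ f ∈ N, ∀ y ∈ (P' : Subgroup Γ), f⁻¹ * y * f ∈ (P : Subgroup Γ) := by
  have hq : IsPGroup p (Γ ⧸ N) := by
    intro g
    obtain ⟨k, rfl⟩ := QuotientGroup.mk_surjective g
    obtain ⟨n, hn⟩ := hN k
    exact ⟨n, by rw [← QuotientGroup.mk_pow, QuotientGroup.eq_one_iff]; exact hn⟩
  have htop : (P : Subgroup Γ).map (QuotientGroup.mk' N) = ⊤ := by
    have := (P.mapSurjective (QuotientGroup.mk'_surjective N)).3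
      (hq.to_subgroup ⊤) le_top
    rw [← Sylow.coe_mapSurjective (QuotientGroup.mk'_surjective N)]
    exact this.symm
  obtain ⟨k, hk⟩ := MulAction.exists_smul_eq Γ P P'
  have hk2 : QuotientGroup.mk' N k ∈ (P : Subgroup Γ).map (QuotientGroup.mk' N) := by
    rw [htop]; trivial
  obtain ⟨u, hu, e⟩ := hk2
  have hf : k * u⁻¹ ∈ N := by
    rw [← QuotientGroup.eq_one_iff, QuotientGroup.mk_mul, QuotientGroup.mk_inv]
    have e' : (u : Γ ⧸ N) = (k : Γ ⧸ N) := e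
    rw [e', mul_inv_cancel]
  refine ⟨k * u⁻¹, hf, fun y hy => ?_⟩
  rw [← hk, Sylow.coe_subgroup_smul, Subgroup.mem_pointwise_smul_iff_inv_smul_mem] at hy
  have hy' : k⁻¹ * y * k ∈ (P : Subgroup Γ) := by
    simpa [MulAut.smul_def] using hy
  have : (k * u⁻¹)⁻¹ * y * (k * u⁻¹) = u * (k⁻¹ * y * k) * u⁻¹ := by group
  rw [this]
  exact mul_mem (mul_mem hu hy') (inv_mem hu)

theorem Core.l5 {p : ℕ} {x : G} (h : Core p x) {H : Subgroup G} (hH : H ≠ ⊤) (hx : x ∈ H) {g : G}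
    (hg : g ∈ H) : ∃ δ ∈ Dmax p x H, ∃ β : G, g = δ * β ∧
      IsPGroup p (Subgroup.closure ({x, β * x * β⁻¹} : Set G)) := by
  have := Fact.mk h.prime
  obtain ⟨-, -, -, F, K, hFK, hKH, hHF, hHK, hxK, -, hFc, hKp, hD⟩ := h.dmax_spec hH hx
  have hxp : x ^ p = 1 := h.ord ▸ pow_orderOf_eq_one x
  have hyK : g * x * g⁻¹ ∈ K := (Subgroup.mem_normalizer_iff.1 (hHK hg) x).1 hxK
  have hzp : ∀ k : K, k ^ p = 1 → ∃ P : Sylow p K, k ∈ (P : Subgroup K) := by
    intro k hk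
    have : IsPGroup p (Subgroup.zpowers k) := by
      rintro ⟨_, m, rfl⟩
      refine ⟨1, Subtype.ext ?_⟩
      show (k ^ m) ^ p ^ 1 = 1
      rw [pow_one, ← zpow_natCast, ← zpow_mul, mul_comm, zpow_mul, zpow_natCast, hk, one_zpow]
    obtain ⟨P, hP⟩ := this.exists_le_sylow
    exact ⟨P, hP (Subgroup.mem_zpowers k)⟩
  obtain ⟨P, hP⟩ := hzp ⟨x, hxK⟩ (Subtype.ext hxp)
  obtain ⟨P', hP'⟩ := hzp ⟨g * x * g⁻¹, hyK⟩ (Subtype.ext (by
    show (g * x * g⁻¹) ^ p = 1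
    rw [conj_pow, hxp, mul_one, mul_inv_cancel]))
  have hn : (F.subgroupOf K).Normal :=
    (Subgroup.normal_subgroupOf_iff_le_normalizer hFK).2 (hKH.trans hHF)
  obtain ⟨f, hf, hfP⟩ := L5_aux_conj (F.subgroupOf K) (fun k => hKp k.1 k.2) P P'
  obtain ⟨-, -, -, -, hdec⟩ := coprime_decomp h.prime h.ord hFc (hHF hx)
  obtain ⟨δ, hδ, c, hc, e⟩ := hdec f.1 hf
  have hcx : x * c = c * x := hc.2 x rfl
  refine ⟨δ, hD ▸ hδ, δ⁻¹ * g, by group, ?_⟩
  have hQ : IsPGroup p (((P : Subgroup K).map K.subtype).map (MulAut.conj c).toMonoidHom) :=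
    (P.isPGroup'.map _).map _
  refine hQ.to_le ?_
  rw [Subgroup.closure_le]
  rintro y (rfl | rfl)
  · refine ⟨y, ⟨_, hP, rfl⟩, ?_⟩
    show c * y * c⁻¹ = y
    rw [← hcx, mul_inv_cancel_right]
  · refine ⟨_, ⟨_, hfP _ hP', rfl⟩, ?_⟩
    show c * ((f : G)⁻¹ * (g * x * g⁻¹) * f) * c⁻¹ = _
    rw [e]
    group

/-- `D_x(⟨x,a⟩)_q = 1` forces `⟨x,a⟩` to be a `q'`-group -/
theorem Core.coprime_of_dq_bot {p q : ℕ} {x a : G} (h : Core p x) (ha : Core p a) (hq : q.Prime)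
    (hqp : q ≠ p) (hb : Dq q x (Subgroup.closure ({x, a} : Set G)) = ⊥) :
    (Nat.card (Subgroup.closure ({x, a} : Set G))).Coprime q := by
  have := Fact.mk hq
  set H := Subgroup.closure ({x, a} : Set G) with hHdef
  have hH : H ≠ ⊤ := h.two a
  have hx : x ∈ H := Subgroup.subset_closure (by simp)
  have haH : a ∈ H := Subgroup.subset_closure (by simp)
  have hc : p.Coprime q := (Nat.coprime_primes h.prime hq).2 hqp.symm
  have hxp : (⟨x, hx⟩ : H) ^ p = 1 := Subtype.ext (h.ord ▸ pow_orderOf_eq_one x)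
  have hap : (⟨a, haH⟩ : H) ^ p = 1 := Subtype.ext (ha.ord ▸ pow_orderOf_eq_one a)
  have hgen : Subgroup.closure ({⟨x, hx⟩, ⟨a, haH⟩} : Set H) = ⊤ := by
    apply Subgroup.map_injective H.subtype_injective
    rw [MonoidHom.map_closure, ← MonoidHom.range_eq_map, Subgroup.range_subtype,
      Set.image_insert_eq, Set.image_singleton]
    rfl
  obtain ⟨F, K, hFK, hKH, hHF, hHK, hxK, hFn, -, hKp⟩ := h.loc H hH hx
  have hKn : (K.subgroupOf H).Normal :=
    (Subgroup.normal_subgroupOf_iff_le_normalizer hKH).2 hHK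
  have hFn' : (F.subgroupOf H).Normal :=
    (Subgroup.normal_subgroupOf_iff_le_normalizer (hFK.trans hKH)).2 hHF
  have hFnil : Group.IsNilpotent (F.subgroupOf H) :=
    Group.nilpotent_of_mulEquiv (Subgroup.subgroupOfEquivOfLe (hFK.trans hKH)).symm
  obtain ⟨S⟩ : Nonempty (Sylow q H) := inferInstance
  have hSF : (S : Subgroup H) ≤ F.subgroupOf H := by
    intro s hs
    obtain ⟨n, hn⟩ := S.isPGroup' ⟨s, hs⟩
    have hn' : s ^ q ^ n = 1 := congrArg Subtype.val hn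
    have h1 : s ^ p ∈ K.subgroupOf H := L5_aux_pow hgen hap (K.subgroupOf H) hxK s
    obtain ⟨m, hm⟩ := hKp _ h1
    have h2 : s ^ p ^ (m + 1) ∈ F.subgroupOf H := by
      rw [pow_succ', pow_mul]
      exact hm
    exact L5_aux_mem ((hc.pow_left (m + 1)).pow_right n) h2 (hn' ▸ one_mem _)
  have hSn : (S : Subgroup H).Normal := by
    have h1 : ((S.subtype hSF : Sylow q (F.subgroupOf H)) : Subgroup (F.subgroupOf H)).Normal :=
      inferInstance
    have h2 := Sylow.characteristic_of_normal _ h1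
    have h3 := ConjAct.normal_of_characteristic_of_normal
      (H := F.subgroupOf H) (K := (S.subtype hSF : Sylow q (F.subgroupOf H)))
    rwa [Sylow.coe_subtype, Subgroup.subgroupOf_map_subtype, inf_eq_left.2 hSF] at h3
  have hSO : (S : Subgroup H).map H.subtype ≤ Oq q H := by
    refine le_oq (Subgroup.map_subtype_le _) ?_ (S.isPGroup'.map _)
    have := Subgroup.le_normalizer_map (H := (S : Subgroup H)) H.subtype
    rwa [Subgroup.normalizer_eq_top, ← MonoidHom.range_eq_map, Subgroup.range_subtype] at this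
  obtain ⟨-, -, hcm, -⟩ := h.dq_spec hq hqp hH hx
  rw [hb, eq_comm, Subgroup.commutator_eq_bot_iff_le_centralizer] at hcm
  have hxC : (⟨x, hx⟩ : H) ∈ Subgroup.centralizer ((S : Subgroup H) : Set H) := by
    intro s hs
    exact Subtype.ext (hcm (hSO ⟨s, hs, rfl⟩) x (Subgroup.mem_zpowers x)).symm
  have hbot := L5_aux_bot hc hgen hxp hap S hxC
  refine ((Nat.Prime.coprime_iff_not_dvd hq).2 fun hd => ?_).symm
  exact S.ne_bot_of_dvd_card hd hbot

end Cfsg.Agent.F2C
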