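import Cfsg.Agent.F2C.Defs
import Cfsg.Agent.GT.Fitting

set_option autoImplicit false
set_option linter.unusedSectionVars false
set_option linter.unusedVariables false
open Cfsg

namespace Cfsg.Agent.F2C

variable {G : Type*} [Group G] [Finite G]

theorem MNa_aux_nil_of_le {A B : Subgroup G} (hB : Group.IsNilpotent B) (h : A ≤ B) :
    Group.IsNilpotent A := by
  rw [Subgroup.isNilpotent_iff_lowerCentralSeries] at hB ⊢
  obtain ⟨n, hn⟩ := hB
  exact ⟨n, le_bot_iff.1 (hn ▸ Subgroup.lowerCentralSeries_mono n h)⟩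

theorem mn_top_iff [(fittingSubgroup G).Normal] (x : G) :
    MN (⊤ : Subgroup G) x ↔
      x ∈ (fittingSubgroup (G ⧸ fittingSubgroup G)).comap
        (QuotientGroup.mk' (fittingSubgroup G)) := by
  constructor
  · rintro ⟨A, K, hAK, -, hxK, hA, hK, hnil, n, hn⟩
    haveI hAn : A.Normal := Subgroup.normalizer_eq_top_iff.1 (top_le_iff.1 hA)
    haveI hKn : K.Normal := Subgroup.normalizer_eq_top_iff.1 (top_le_iff.1 hK)
    have hAF : A ≤ fittingSubgroup G := GT.le_fitting A
    haveI : (K.map (QuotientGroup.mk' (fittingSubgroup G))).Normal :=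
      hKn.map _ (QuotientGroup.mk'_surjective _)
    haveI : Group.IsNilpotent (K.map (QuotientGroup.mk' (fittingSubgroup G))) := by
      rw [Subgroup.isNilpotent_iff_lowerCentralSeries]
      refine ⟨n, ?_⟩
      rw [← Subgroup.map_lowerCentralSeries, Subgroup.map_eq_bot_iff, QuotientGroup.ker_mk']
      exact hn.trans hAF
    have h2 := GT.le_fitting (K.map (QuotientGroup.mk' (fittingSubgroup G)))
    exact h2 (Subgroup.mem_map_of_mem _ hxK)
  · intro hx
    have hnil : Group.IsNilpotent (fittingSubgroup (G ⧸ fittingSubgroup G)) := inferInstance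
    rw [Subgroup.isNilpotent_iff_lowerCentralSeries] at hnil
    obtain ⟨n, hn⟩ := hnil
    refine ⟨fittingSubgroup G, (fittingSubgroup (G ⧸ fittingSubgroup G)).comap
        (QuotientGroup.mk' (fittingSubgroup G)), ?_, le_top, hx, ?_, ?_, inferInstance, n, ?_⟩
    · intro g hg
      rw [Subgroup.mem_comap, QuotientGroup.mk'_apply, (QuotientGroup.eq_one_iff g).2 hg]
      exact Subgroup.one_mem _
    · exact top_le_iff.2 (Subgroup.normalizer_eq_top_iff.2 inferInstance)
    · exact top_le_iff.2 (Subgroup.normalizer_eq_top_iff.2 inferInstance)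
    · have h1 : (((fittingSubgroup (G ⧸ fittingSubgroup G)).comap
          (QuotientGroup.mk' (fittingSubgroup G))).lowerCentralSeries n).map
          (QuotientGroup.mk' (fittingSubgroup G)) = ⊥ := by
        rw [Subgroup.map_lowerCentralSeries, ← le_bot_iff, ← hn]
        exact Subgroup.lowerCentralSeries_mono n (Subgroup.map_comap_le _ _)
      rw [Subgroup.map_eq_bot_iff, QuotientGroup.ker_mk'] at h1
      exact h1

theorem MN.mono {H H' : Subgroup G} {x : G} (h : MN H x) (hle : H' ≤ H) (hx : x ∈ H') :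
    MN H' x := by
  obtain ⟨A, K, hAK, hKH, hxK, hA, hK, hnil, n, hn⟩ := h
  refine ⟨A ⊓ H', K ⊓ H', inf_le_inf_right _ hAK, inf_le_right, ⟨hxK, hx⟩, ?_, ?_,
    MNa_aux_nil_of_le hnil inf_le_left, n, le_inf ?_ ?_⟩
  · exact (le_inf (hle.trans hA) Subgroup.le_normalizer).trans
      Subgroup.inf_normalizer_le_normalizer_inf
  · exact (le_inf (hle.trans hK) Subgroup.le_normalizer).trans
      Subgroup.inf_normalizer_le_normalizer_inf
  · exact (Subgroup.lowerCentralSeries_mono n inf_le_left).trans hn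
  · exact (Subgroup.lowerCentralSeries_le_self _ n).trans inf_le_right

theorem MN.pow {H : Subgroup G} {x : G} (h : MN H x) (n : ℕ) : MN H (x ^ n) := by
  obtain ⟨A, K, hAK, hKH, hxK, hA, hK, hnil, hn⟩ := h
  exact ⟨A, K, hAK, hKH, K.pow_mem hxK n, hA, hK, hnil, hn⟩

theorem MN.map {G' : Type*} [Group G'] [Finite G'] (f : G →* G') {H : Subgroup G} {x : G}
    (h : MN H x) : MN (H.map f) (f x) := by
  obtain ⟨A, K, hAK, hKH, hxK, hA, hK, hnil, n, hn⟩ := h
  refine ⟨A.map f, K.map f, Subgroup.map_mono hAK, Subgroup.map_mono hKH,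
    Subgroup.mem_map_of_mem f hxK, (Subgroup.map_mono hA).trans (Subgroup.le_normalizer_map f),
    (Subgroup.map_mono hK).trans (Subgroup.le_normalizer_map f), ?_, n, ?_⟩
  · rw [Subgroup.isNilpotent_iff_lowerCentralSeries] at hnil ⊢
    obtain ⟨m, hm⟩ := hnil
    exact ⟨m, by rw [← Subgroup.map_lowerCentralSeries, hm, Subgroup.map_bot]⟩
  · rw [← Subgroup.map_lowerCentralSeries]
    exact Subgroup.map_mono hn

theorem MN.of_map {G' : Type*} [Group G'] [Finite G'] (f : G →* G') (hf : Function.Injective f)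
    {H : Subgroup G} {x : G} (h : MN (H.map f) (f x)) : MN H x := by
  obtain ⟨A, K, hAK, hKH, hxK, hA, hK, hnil, n, hn⟩ := h
  refine ⟨A.comap f, K.comap f, Subgroup.comap_mono hAK, ?_, hxK, ?_, ?_, ?_, n, ?_⟩
  · rw [← Subgroup.comap_map_eq_self_of_injective hf H]
    exact Subgroup.comap_mono hKH
  · exact (Subgroup.map_le_iff_le_comap.1 hA).trans (Subgroup.le_normalizer_comap f)
  · exact (Subgroup.map_le_iff_le_comap.1 hK).trans (Subgroup.le_normalizer_comap f)
  · rw [Subgroup.isNilpotent_iff_lowerCentralSeries] at hnil ⊢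
    obtain ⟨m, hm⟩ := hnil
    refine ⟨m, ?_⟩
    rw [← Subgroup.map_eq_bot_iff_of_injective _ hf, Subgroup.map_lowerCentralSeries,
      ← le_bot_iff, ← hm]
    exact Subgroup.lowerCentralSeries_mono m (Subgroup.map_comap_le _ _)
  · rw [← Subgroup.map_le_iff_le_comap, Subgroup.map_lowerCentralSeries]
    exact (Subgroup.lowerCentralSeries_mono n (Subgroup.map_comap_le _ _)).trans hn

end Cfsg.Agent.F2C
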