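import Cfsg.Agent.F2C.Defs
import Cfsg.Agent.GT.Fitting

set_option autoImplicit false
set_option linter.unusedSectionVars false
open Cfsg

namespace Cfsg.Agent.F2C

variable {G : Type*} [Group G] [Finite G]

omit [Finite G] in
theorem MNb_aux_lcs {G' : Type*} [Group G'] (f : G →* G') {K : Subgroup G} {K' A' : Subgroup G'} {n m : ℕ}
    (hK : K ≤ K'.comap f) (h : K'.lowerCentralSeries n ≤ A') (hm : n ≤ m) :
    K.lowerCentralSeries m ≤ A'.comap f := by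
  refine (K.lowerCentralSeries_antitone hm).trans (Subgroup.map_le_iff_le_comap.1 ?_)
  rw [Subgroup.map_lowerCentralSeries]
  exact (Subgroup.lowerCentralSeries_mono n (Subgroup.map_le_iff_le_comap.2 hK)).trans h

theorem mn_of_quot2 (N N' : Subgroup G) [N.Normal] [N'.Normal] (hd : N ⊓ N' = ⊥) {x : G}
    (h : MN (⊤ : Subgroup (G ⧸ N)) (x : G ⧸ N)) (h' : MN (⊤ : Subgroup (G ⧸ N')) (x : G ⧸ N')) :
    MN (⊤ : Subgroup G) x := by
  obtain ⟨A, K, h1, -, h3, h4, h5, h6, n, h7⟩ := h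
  obtain ⟨A', K', k1, -, k3, k4, k5, k6, n', k7⟩ := h'
  have := Subgroup.normalizer_eq_top_iff.1 (top_le_iff.1 h4)
  have := Subgroup.normalizer_eq_top_iff.1 (top_le_iff.1 h5)
  have := Subgroup.normalizer_eq_top_iff.1 (top_le_iff.1 k4)
  have := Subgroup.normalizer_eq_top_iff.1 (top_le_iff.1 k5)
  obtain ⟨m, hm⟩ := (Subgroup.isNilpotent_iff_lowerCentralSeries A).1 h6
  obtain ⟨m', hm'⟩ := (Subgroup.isNilpotent_iff_lowerCentralSeries A').1 k6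
  refine ⟨A.comap (QuotientGroup.mk' N) ⊓ A'.comap (QuotientGroup.mk' N'),
    K.comap (QuotientGroup.mk' N) ⊓ K'.comap (QuotientGroup.mk' N'),
    inf_le_inf (Subgroup.comap_mono h1) (Subgroup.comap_mono k1), le_top, ⟨h3, k3⟩,
    (Subgroup.normalizer_eq_top _).ge, (Subgroup.normalizer_eq_top _).ge,
    (Subgroup.isNilpotent_iff_lowerCentralSeries _).2 ⟨m + m', eq_bot_iff.2 (hd ▸ le_inf ?_ ?_)⟩,
    n + n', le_inf (MNb_aux_lcs _ inf_le_left h7 (by omega)) (MNb_aux_lcs _ inf_le_right k7 (by omega))⟩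
  · have := MNb_aux_lcs (QuotientGroup.mk' N) (m := m + m')
      (inf_le_left (b := A'.comap (QuotientGroup.mk' N'))) hm.le (by omega)
    rwa [MonoidHom.comap_bot, QuotientGroup.ker_mk'] at this
  · have := MNb_aux_lcs (QuotientGroup.mk' N') (m := m + m')
      (inf_le_right (a := A.comap (QuotientGroup.mk' N))) hm'.le (by omega)
    rwa [MonoidHom.comap_bot, QuotientGroup.ker_mk'] at this

theorem MNb_aux_pow {p : ℕ} (hp : p.Prime) {A : Subgroup G} [Group.IsNilpotent A] {a : G} (ha : a ∈ A) :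
    ∃ n : ℕ, a ^ p ^ n ∈ Cfsg.Agent.GT.pPrimeCoreOf p A := by
  obtain ⟨e, m, hm, he⟩ :=
    Nat.exists_eq_pow_mul_and_not_dvd (orderOf_pos (⟨a, ha⟩ : A)).ne' p hp.ne_one
  have h1 : (Nat.card (Subgroup.zpowers ((⟨a, ha⟩ : A) ^ p ^ e))).Coprime p := by
    rw [Nat.card_zpowers]
    exact (((Nat.Prime.coprime_iff_not_dvd hp).2 hm).symm).coprime_dvd_left
      (orderOf_dvd_of_pow_eq_one (by rw [← pow_mul, ← he, pow_orderOf_eq_one]))
  have h2 := Cfsg.Agent.GT.le_pPrimeCore_of_isNilpotent h1 (Subgroup.mem_zpowers _)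
  rw [← Cfsg.Agent.GT.pPrimeCoreOf_subgroupOf] at h2
  exact ⟨e, h2⟩

theorem MNb_aux_sub (p : ℕ) {A K : Subgroup G} (hn : K ≤ Nm A) {n : ℕ}
    (h : K.lowerCentralSeries n ≤ A) :
    ∃ K' : Subgroup G, ∀ k, k ∈ K' ↔ k ∈ K ∧ ∃ n : ℕ, k ^ p ^ n ∈ A := by
  have : (A.subgroupOf K).Normal := Subgroup.normal_subgroupOf_of_le_normalizer hn
  let π := QuotientGroup.mk' (A.subgroupOf K)
  have : Group.IsNilpotent (K ⧸ A.subgroupOf K) := by
    refine Subgroup.nilpotent_iff_lowerCentralSeries.2 ⟨n, ?_⟩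
    rw [← Subgroup.map_top_of_surjective π (QuotientGroup.mk'_surjective _),
      ← Subgroup.map_lowerCentralSeries, Subgroup.map_eq_bot_iff, QuotientGroup.ker_mk']
    exact Subgroup.map_le_iff_le_comap.1 ((Subgroup.top_subtype_lowerCentralSeries K n).le.trans h)
  have hπ : ∀ (k : K) (j : ℕ), π k ^ j = 1 ↔ (k : G) ^ j ∈ A := fun k j => by
    rw [← map_pow, ← MonoidHom.mem_ker, QuotientGroup.ker_mk']
    rfl
  refine ⟨((pCore p (K ⧸ A.subgroupOf K)).comap π).map K.subtype, fun k => ⟨?_, fun ⟨hk, j, hj⟩ => ?_⟩⟩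
  · rintro ⟨k, hk, rfl⟩
    obtain ⟨j, hj⟩ := Cfsg.Agent.GT.isPGroup_pCore p (G := K ⧸ A.subgroupOf K) ⟨π k, hk⟩
    exact ⟨k.2, j, (hπ k _).1 (congrArg Subtype.val hj)⟩
  · refine ⟨⟨k, hk⟩, Cfsg.Agent.GT.le_pCore_of_isNilpotent (K := Subgroup.zpowers (π ⟨k, hk⟩)) ?_
      (Subgroup.mem_zpowers _), rfl⟩
    rintro ⟨_, i, rfl⟩
    refine ⟨j, Subtype.ext ?_⟩
    change (π ⟨k, hk⟩ ^ i) ^ p ^ j = 1
    rw [← zpow_natCast, ← zpow_mul, mul_comm, zpow_mul, zpow_natCast, (hπ _ _).2 hj, one_zpow]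

theorem MN.loc {p : ℕ} (hp : p.Prime) {H : Subgroup G} {x : G} (h : MN H x) {n : ℕ}
    (hx : x ^ p ^ n = 1) : Loc p H x := by
  obtain ⟨A, K, h1, h2, h3, h4, h5, h6, m, h7⟩ := h
  obtain ⟨K', hK⟩ := MNb_aux_sub p (h2.trans h4) h7
  have hF := Cfsg.Agent.GT.pPrimeCoreOf_le (p := p) A
  refine ⟨Cfsg.Agent.GT.pPrimeCoreOf p A, K', fun a ha => (hK a).2 ⟨h1 (hF ha), 0, by simpa using hF ha⟩,
    fun k hk => h2 ((hK k).1 hk).1, h4.trans (Cfsg.Agent.GT.normalizer_le_normalizer_pPrimeCoreOf A),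
    fun g hg => Subgroup.mem_normalizer_iff.2 fun k => ?_, (hK x).2 ⟨h3, n, hx ▸ one_mem _⟩,
    Group.nilpotent_of_mulEquiv (Subgroup.subgroupOfEquivOfLe hF),
    Cfsg.Agent.GT.coprime_card_pPrimeCoreOf p A, fun k hk => ?_⟩
  · rw [hK, hK, ← Subgroup.mem_normalizer_iff.1 (h5 hg) k]
    refine and_congr_right fun _ => exists_congr fun j => ?_
    rw [conj_pow, ← Subgroup.mem_normalizer_iff.1 (h4 hg)]
  · obtain ⟨-, j, hj⟩ := (hK k).1 hk
    obtain ⟨i, hi⟩ := MNb_aux_pow hp hj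
    exact ⟨j + i, by rwa [pow_add, pow_mul]⟩

end Cfsg.Agent.F2C
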