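import Cfsg.Agent.F2C.Defs
import Cfsg.Agent.F2C.MNb
import Cfsg.Agent.GT.Fitting
import Cfsg.Agent.Loc.MssSyl

set_option autoImplicit false
open Cfsg

namespace Cfsg.Agent.F2C

open Subgroup Cfsg.Agent.GT

variable {G : Type*} [Group G] [Finite G]

theorem RedA_nil {p : ℕ} (hp : p.Prime) {F K : Subgroup G} [F.Normal] (hK : K ≤ centralizer (F : Set G))
    (h : ∀ k ∈ K, ∃ n : ℕ, k ^ p ^ n ∈ F) : Group.IsNilpotent K := by
  have : Fact p.Prime := ⟨hp⟩
  let f := ((QuotientGroup.mk' F).comp K.subtype).rangeRestrict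
  have h1 : IsPGroup p ((QuotientGroup.mk' F).comp K.subtype).range := by
    rintro ⟨_, k, rfl⟩
    obtain ⟨n, hn⟩ := h k k.2
    exact ⟨n, Subtype.ext ((map_pow _ k _).symm.trans ((QuotientGroup.eq_one_iff _).2 hn))⟩
  have := h1.isNilpotent
  refine Subgroup.isNilpotent_of_ker_le_center f fun k hk => mem_center_iff.2 fun g => Subtype.ext ?_
  exact (hK g.2 k ((QuotientGroup.eq_one_iff _).1 (congrArg Subtype.val hk))).symm

theorem RedA_mn {H : Type*} [Group H] [Finite H] (φ : G →* H) (hφ : Group.IsNilpotent φ.ker) (K : Subgroup H) [K.Normal]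
    (hK : Group.IsNilpotent K) {x : G} (hx : φ x ∈ K) : MN (⊤ : Subgroup G) x := by
  obtain ⟨n, hn⟩ := K.isNilpotent_iff_lowerCentralSeries.1 hK
  refine ⟨φ.ker, K.comap φ, ker_le_comap φ K, le_top, hx, (normalizer_eq_top _).ge, (normalizer_eq_top _).ge, hφ, n,
    (Subgroup.map_eq_bot_iff _).1 (le_bot_iff.1 ?_)⟩
  rw [map_lowerCentralSeries, ← hn]
  exact lowerCentralSeries_mono n (map_comap_le φ K)

theorem red_a {p q : ℕ} (hp : p.Prime) (hq : q.Prime) {x : G} {n : ℕ} (hx : x ^ p ^ n = 1)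
    (N : Subgroup G) [N.Normal] (hNq : IsPGroup q N)
    (hquot : MN (⊤ : Subgroup (G ⧸ N)) (x : G ⧸ N)) :
    MN (⊤ : Subgroup G) x ∨ ∃ r : ℕ, r.Prime ∧ r ≠ p ∧ r ≠ q ∧ ∃ T : Subgroup G, T.Normal ∧ N ≤ T ∧
      (∀ t ∈ T, ∃ m : ℕ, t ^ r ^ m ∈ N) ∧ ∃ ρ ∈ T, (∃ m : ℕ, ρ ^ r ^ m = 1) ∧
      ρ * x * ρ⁻¹ * x⁻¹ ∉ N := by
  obtain ⟨F, K, -, -, h1, h2, h3, h4, h5, h6⟩ := hquot.loc hp (n := n) (by
    rw [← QuotientGroup.mk_pow, hx, QuotientGroup.mk_one])
  have : F.Normal := Loc.Mss.normal_of_top h1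
  have : K.Normal := Loc.Mss.normal_of_top h2
  by_cases h : ∀ r : ℕ, r.Prime → r ≠ q → ∀ t ∈ pCoreOf r F, t * (x : G ⧸ N) = x * t
  · have : Fact q.Prime := ⟨hq⟩
    let ψ := QuotientGroup.mk' (pCoreOf q F)
    have s := QuotientGroup.mk'_surjective (pCoreOf q F)
    have := ‹F.Normal›.map ψ s
    have := ‹K.Normal›.map ψ s
    refine .inl (RedA_mn (ψ.comp (QuotientGroup.mk' N)) ?_ (K.map ψ ⊓ centralizer (F.map ψ : Set _))
      (RedA_nil hp (F := F.map ψ) inf_le_right ?_) ⟨mem_map_of_mem ψ h3, ?_⟩)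
    · rw [← MonoidHom.comap_ker, QuotientGroup.ker_mk']
      exact ((isPGroup_pCoreOf q F).comap_of_ker_isPGroup _ ((QuotientGroup.ker_mk' N).symm ▸ hNq)).isNilpotent
    · rintro _ ⟨⟨k, hk, rfl⟩, -⟩
      exact (h6 k hk).imp fun m hm => map_pow ψ k _ ▸ mem_map_of_mem ψ hm
    · have h7 : F ≤ (centralizer {ψ x}).comap ψ := by
        refine (iSup_pCoreOf_eq F).ge.trans (iSup_le fun r t ht => mem_centralizer_singleton_iff.2 ?_)
        by_cases e : (r : ℕ) = q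
        · rw [(QuotientGroup.eq_one_iff t).2 (e ▸ ht) |> (show ψ t = 1 from ·), one_mul, mul_one]
        · rw [← map_mul, h r r.2 e t ht, map_mul]
      rintro _ ⟨t, ht, rfl⟩
      exact mem_centralizer_singleton_iff.1 (h7 ht)
  · push Not at h
    obtain ⟨r, hr, hrq, t, ht, h⟩ := h
    have : Fact r.Prime := ⟨hr⟩
    have hT := isPGroup_pCoreOf r F
    obtain ⟨S, hS⟩ := Loc.Mss.Syl.exists r ((pCoreOf r F).comap (QuotientGroup.mk' N))
    have h7 := hS.map (QuotientGroup.mk' N)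
    rw [map_comap_eq_self_of_surjective (QuotientGroup.mk'_surjective N)] at h7
    obtain ⟨ρ, hρ, rfl⟩ := h7.ge_of_le hT h7.le le_rfl ht
    refine .inr ⟨r, hr, ?_, hrq, (pCoreOf r F).comap (QuotientGroup.mk' N), inferInstance, fun g hg => ?_,
      fun g hg => ?_, ρ, hS.le hρ, Loc.Mss.pg_iff.1 hS.pg ρ hρ, fun e => h ?_⟩
    · rintro rfl
      obtain ⟨m, hm⟩ := Loc.Mss.pg_iff.1 hT _ ht
      have h8 := Nat.eq_one_of_dvd_coprimes (h5.pow_right m) (orderOf_dvd_natCard _ (pCoreOf_le F ht))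
        (orderOf_dvd_of_pow_eq_one hm)
      rw [orderOf_eq_one_iff.1 h8, one_mul, mul_one] at h
      exact h rfl
    · rw [mem_comap, QuotientGroup.mk'_apply, (QuotientGroup.eq_one_iff g).2 hg]
      exact one_mem _
    · exact (Loc.Mss.pg_iff.1 hT _ hg).imp fun m hm => (QuotientGroup.eq_one_iff _).1 hm
    · have := (QuotientGroup.eq_one_iff _).2 e
      rwa [QuotientGroup.mk_mul, QuotientGroup.mk_mul, QuotientGroup.mk_mul, QuotientGroup.mk_inv,
        QuotientGroup.mk_inv, mul_inv_eq_one, mul_inv_eq_iff_eq_mul] at this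

end Cfsg.Agent.F2C
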