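import Mathlib
import Cfsg.Agent.F2C.Defs
import Cfsg.Agent.F2C.MNb
import Cfsg.Agent.GT.Fitting
import Cfsg.Agent.GT.TransferPNilp

set_option autoImplicit false
open Cfsg

namespace Cfsg.Agent.F2C

variable {G : Type*} [Group G] [Finite G]

open Subgroup

theorem RedB_mem {H : Subgroup G} {a : G} {m : ℕ} (h : a ^ m ∈ H) (hc : m.Coprime (orderOf a)) :
    a ∈ H :=
  zpowers_le.2 h (mem_zpowers_pow_iff.2 hc)

theorem red_cent {q r : ℕ} (hq : q.Prime) (hr : r.Prime) (hrq : r ≠ q) (N T : Subgroup G) [N.Normal]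
    [T.Normal] (hN : N ≠ ⊥) (hNq : IsPGroup q N) (hab : ∀ a ∈ N, ∀ b ∈ N, Commute a b)
    (hmin : ∀ K : Subgroup G, K.Normal → K ≠ ⊥ → N ≤ K) (hNT : N ≤ T)
    (hT : ∀ t ∈ T, ∃ m : ℕ, t ^ r ^ m ∈ N) :
    ∀ t ∈ T, (∀ a ∈ N, Commute t a) → t ∈ N := by
  haveI := Fact.mk hr
  set C : Subgroup G := T ⊓ centralizer (N : Set G) with hC
  haveI hCn : C.Normal := inferInstance
  have hP : IsPGroup r (C ⧸ center C) := by
    intro c
    obtain ⟨c, rfl⟩ := QuotientGroup.mk_surjective c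
    obtain ⟨m, hm⟩ := hT c c.2.1
    refine ⟨m, ?_⟩
    rw [← QuotientGroup.mk_pow, QuotientGroup.eq_one_iff]
    exact mem_center_iff.2 fun g => Subtype.ext (g.2.2 _ hm).symm
  obtain ⟨j, hj⟩ := IsPGroup.iff_card.1 hP
  have hj' : (center C).index = r ^ j := hj
  have hmul : ∀ a ∈ C, ∀ b ∈ C, (a * b) ^ r ^ j = a ^ r ^ j * b ^ r ^ j ∧
      Commute (a ^ r ^ j) (b ^ r ^ j) := by
    intro a ha b hb
    have h1 := congrArg (fun z : center C => ((z : C) : G))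
      (map_mul (MonoidHom.transferCenterPow C) ⟨a, ha⟩ ⟨b, hb⟩)
    have h2 := congrArg (fun z : C => (z : G))
      (mem_center_iff.1 (MonoidHom.transferCenterPow C ⟨b, hb⟩).2 (⟨a, ha⟩ ^ r ^ j))
    simp only [coe_mul, MonoidHom.transferCenterPow_apply, hj', SubmonoidClass.coe_pow] at h1 h2
    exact ⟨h1, h2⟩
  let R : Subgroup G :=
    { carrier := {g | g ∈ C ∧ ∃ k : ℕ, g ^ r ^ k = 1}
      one_mem' := ⟨one_mem _, 0, one_pow _⟩
      mul_mem' := by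
        rintro a b ⟨ha, k, hk⟩ ⟨hb, l, hl⟩
        obtain ⟨h1, h2⟩ := hmul a ha b hb
        refine ⟨mul_mem ha hb, j + (k + l), ?_⟩
        rw [pow_add, pow_mul, h1, h2.mul_pow, ← pow_mul, ← pow_mul, mul_comm (r ^ j), pow_mul,
          pow_mul b, pow_add, pow_mul a, hk, mul_comm (r ^ k), pow_mul b, hl]
        simp
      inv_mem' := by
        rintro a ⟨ha, k, hk⟩
        exact ⟨inv_mem ha, k, by rw [inv_pow, hk, inv_one]⟩ }
  have hRn : R.Normal := ⟨by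
    rintro a ⟨ha, k, hk⟩ g
    exact ⟨hCn.conj_mem a ha g, k, by rw [conj_pow, hk, mul_one, mul_inv_cancel]⟩⟩
  have hR : R = ⊥ := by
    by_contra hne
    refine hN (eq_bot_iff.2 fun a ha => ?_)
    obtain ⟨-, k, hk⟩ := hmin R hRn hne ha
    obtain ⟨i, hi⟩ := hNq ⟨a, ha⟩
    have hi' : a ^ q ^ i = 1 := congrArg Subtype.val hi
    refine RedB_mem (m := r ^ k) (by rw [hk]; exact one_mem _) ?_
    exact Nat.Coprime.coprime_dvd_right (orderOf_dvd_of_pow_eq_one hi')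
      (Nat.Coprime.pow _ _ ((Nat.coprime_primes hr hq).2 hrq))
  intro t ht hc
  have htC : t ∈ C := ⟨ht, fun a ha => (hc a ha).eq.symm⟩
  obtain ⟨u, hu, v, hv, ⟨k, hk⟩, hv', rfl⟩ := GT.Tr.exists_pPart_mul_pPrimePart (p := r) t
  have hu1 : u ∈ R := ⟨zpowers_le.2 htC hu, k, by rw [← hk, pow_orderOf_eq_one]⟩
  rw [hR, mem_bot] at hu1
  obtain ⟨m, hm⟩ := hT v (zpowers_le.2 ht hv)
  rw [hu1, one_mul]
  exact RedB_mem hm (hv'.symm.pow_left m)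

theorem red_gen {p q r : ℕ} (hp : p.Prime) (hq : q.Prime) (hr : r.Prime) (hrp : r ≠ p) (hrq : r ≠ q)
    {x : G} {n : ℕ} (hx : x ^ p ^ n = 1) (N T : Subgroup G) [N.Normal] [T.Normal]
    (hNq : IsPGroup q N) (hT : ∀ t ∈ T, ∃ m : ℕ, t ^ r ^ m ∈ N)
    (hcent : ∀ t ∈ T, (∀ a ∈ N, Commute t a) → t ∈ N) {ρ : G} (hρ : ρ ∈ T)
    (hρx : ρ * x * ρ⁻¹ * x⁻¹ ∉ N) (hprop : ∀ H : Subgroup G, H ≠ ⊤ → x ∈ H → MN H x) :
    N ⊔ Subgroup.closure ({x, ρ} : Set G) = ⊤ := by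
  haveI := Fact.mk hr
  haveI := Fact.mk hq
  by_contra hne
  have hxL : x ∈ N ⊔ closure ({x, ρ} : Set G) := mem_sup_right (subset_closure (by simp))
  have hρL : ρ ∈ N ⊔ closure ({x, ρ} : Set G) := mem_sup_right (subset_closure (by simp))
  obtain ⟨F, K, -, -, hF, hK, hxK, hFn, -, hKF⟩ := (hprop _ hne hxL).loc hp hx
  have heK : ρ * x * ρ⁻¹ * x⁻¹ ∈ K :=
    mul_mem ((mem_normalizer_iff.1 (hK hρL) x).1 hxK) (inv_mem hxK)
  have heT : ρ * x * ρ⁻¹ * x⁻¹ ∈ T := by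
    rw [mul_assoc, mul_assoc, ← mul_assoc x]
    exact mul_mem hρ (‹T.Normal›.conj_mem _ (inv_mem hρ) x)
  obtain ⟨u, hu, v, hv, ⟨k, hk⟩, hv', he⟩ :=
    GT.Tr.exists_pPart_mul_pPrimePart (p := r) (ρ * x * ρ⁻¹ * x⁻¹)
  haveI := hNq.isNilpotent
  haveI : Group.IsNilpotent ↥(F ⊔ N) :=
    GT.isNilpotent_sup_of_le_normalizer le_normalizer_of_normal (le_sup_left.trans hF)
  obtain ⟨i, hi⟩ := hKF u (zpowers_le.2 heK hu)
  have huF : u ∈ F :=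
    RedB_mem hi (hk ▸ Nat.Coprime.pow _ _ ((Nat.coprime_primes hp hr).2 hrp.symm))
  have huN : u ∈ N := hcent u (zpowers_le.2 heT hu) fun a ha => by
    obtain ⟨l, hl⟩ := hNq ⟨a, ha⟩
    have hl' : a ^ q ^ l = 1 := congrArg Subtype.val hl
    refine GT.commute_of_coprime_of_isNilpotent (H := F ⊔ N) (mem_sup_left huF) (mem_sup_right ha) ?_
    rw [hk]
    exact Nat.Coprime.coprime_dvd_right (orderOf_dvd_of_pow_eq_one hl')
      (Nat.Coprime.pow _ _ ((Nat.coprime_primes hr hq).2 hrq))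
  obtain ⟨m, hm⟩ := hT v (zpowers_le.2 heT hv)
  exact hρx (he ▸ mul_mem huN (RedB_mem hm (hv'.symm.pow_left m)))

end Cfsg.Agent.F2C
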