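import Mathlib
import Cfsg.Agent.F2C.Defs
import Cfsg.Agent.GT.SchurZassenhaus

set_option autoImplicit false
open Cfsg

namespace Cfsg.Agent.F2C

variable {G : Type*} [Group G] [Finite G]

omit [Finite G] in
theorem RedC_aux_normal (N H K : Subgroup G) [N.Normal] (hab : ∀ a ∈ N, ∀ b ∈ N, Commute a b)
    (hK : K ≤ N) (hH : ∀ h ∈ H, ∀ k ∈ K, h * k * h⁻¹ ∈ K) (hs : N ⊔ H = ⊤) : K.Normal := by
  refine ⟨fun k hk g => ?_⟩
  have hg : g ∈ N ⊔ H := hs ▸ Subgroup.mem_top g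
  obtain ⟨n, hn, h, hh, rfl⟩ := Subgroup.mem_sup_of_normal_left.1 hg
  have h1 := hH h hh k hk
  have h2 := (hab n hn _ (hK h1)).eq
  have e : n * h * k * (n * h)⁻¹ = h * k * h⁻¹ := by
    calc n * h * k * (n * h)⁻¹ = n * (h * k * h⁻¹) * n⁻¹ := by group
      _ = h * k * h⁻¹ := by rw [h2]; group
  rw [e]; exact h1

open Pointwise in
theorem red_c {q r : ℕ} (hq : q.Prime) (hr : r.Prime) (hrq : r ≠ q) {x : G} (N T : Subgroup G)
    [N.Normal] [T.Normal] (hNq : IsPGroup q N) (hab : ∀ a ∈ N, ∀ b ∈ N, Commute a b)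
    (hmin : ∀ K : Subgroup G, K.Normal → K ≠ ⊥ → N ≤ K) (hNT : N ≤ T)
    (hT : ∀ t ∈ T, ∃ m : ℕ, t ^ r ^ m ∈ N)
    (hcent : ∀ t ∈ T, (∀ a ∈ N, Commute t a) → t ∈ N) {ρ : G} (hρ : ρ ∈ T)
    (hρx : ρ * x * ρ⁻¹ * x⁻¹ ∉ N) (hgen : N ⊔ Subgroup.closure ({x, ρ} : Set G) = ⊤) :
    ∃ a ∈ N, Subgroup.closure ({x, a * ρ} : Set G) = ⊤ := by
  by_contra hcon
  push Not at hcon
  haveI : Fact q.Prime := ⟨hq⟩
  haveI : Fact r.Prime := ⟨hr⟩
  have hNn : N.Normal := inferInstance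
  have hTn : T.Normal := inferInstance
  haveI : IsMulCommutative N := ⟨⟨fun a b => Subtype.ext (hab a a.2 b b.2).eq⟩⟩
  set H : G → Subgroup G := fun a => Subgroup.closure ({x, a * ρ} : Set G) with hH
  have hx : ∀ a, x ∈ H a := fun a => Subgroup.subset_closure (by simp)
  have hy : ∀ a, a * ρ ∈ H a := fun a => Subgroup.subset_closure (by simp)
  have hsup : ∀ a ∈ N, N ⊔ H a = ⊤ := fun a ha => by
    refine top_le_iff.1 (hgen.ge.trans (sup_le le_sup_left ((Subgroup.closure_le _).2 ?_)))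
    rintro g (rfl | rfl)
    · exact Subgroup.mem_sup_right (hx a)
    · have := (N ⊔ H a).mul_mem (Subgroup.mem_sup_left (N.inv_mem ha)) (Subgroup.mem_sup_right (hy a))
      simpa using this
  have hbot : ∀ a ∈ N, ∀ n ∈ N, n ∈ H a → n = 1 := fun a ha n hn hn' => by
    by_contra h1
    have hK := RedC_aux_normal N (H a) (H a ⊓ N) hab inf_le_right
      (fun h hh k hk => ⟨(H a).mul_mem ((H a).mul_mem hh hk.1) ((H a).inv_mem hh), hNn.conj_mem _ hk.2 _⟩)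
      (hsup a ha)
    have hle := hmin _ hK fun e => h1 (Subgroup.mem_bot.1 (e ▸ (⟨hn', hn⟩ : n ∈ H a ⊓ N)))
    exact hcon a ha (top_le_iff.1 ((hsup a ha).ge.trans (sup_le (hle.trans inf_le_left) le_rfl)))
  have hcop : ∀ a ∈ N, (Nat.card N).Coprime (Nat.card (H a ⊓ T : Subgroup G)) := fun a ha => by
    refine IsPGroup.coprime_card_of_ne q r hrq.symm _ _ hNq fun t => ?_
    obtain ⟨m, hm⟩ := hT t t.2.2
    exact ⟨m, Subtype.ext (hbot a ha _ hm ((H a).pow_mem t.2.1 _))⟩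
  have hNR : ∀ a ∈ N, N ⊔ (H a ⊓ T) = T := fun a ha => by
    refine le_antisymm (sup_le hNT inf_le_right) fun t ht => ?_
    have hg : t ∈ N ⊔ H a := hsup a ha ▸ Subgroup.mem_top t
    obtain ⟨n, hn, h, hh, rfl⟩ := Subgroup.mem_sup_of_normal_left.1 hg
    exact Subgroup.mul_mem_sup hn ⟨hh, (Subgroup.mul_mem_cancel_left T (hNT hn)).1 ht⟩
  have hcR : ∀ a, ∀ h ∈ H a, ∀ t ∈ H a ⊓ T, h * t * h⁻¹ ∈ H a ⊓ T := fun a h hh t ht =>
    ⟨(H a).mul_mem ((H a).mul_mem hh ht.1) ((H a).inv_mem hh), hTn.conj_mem _ ht.2 _⟩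
  have hρ1 : ρ ∈ H 1 ⊓ T := ⟨by simpa using hy 1, hρ⟩
  have hρN : ρ ∉ N := fun e => hρx (by
    have := N.mul_mem e (hNn.conj_mem _ (N.inv_mem e) x)
    simpa [mul_assoc] using this)
  have hC : ∀ n ∈ N, (∀ t ∈ H 1 ⊓ T, n * t * n⁻¹ ∈ H 1 ⊓ T) → n = 1 := fun n hn hnt => by
    by_contra h1
    have hK := RedC_aux_normal N (H 1) (N ⊓ Subgroup.centralizer ((H 1 ⊓ T : Subgroup G) : Set G)) hab
      inf_le_left (fun h hh k hk => ⟨hNn.conj_mem _ hk.1 _, fun t ht => by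
        have e := hk.2 _ (hcR 1 h⁻¹ ((H 1).inv_mem hh) t ht)
        calc t * (h * k * h⁻¹) = h * (h⁻¹ * t * h⁻¹⁻¹ * k) * h⁻¹ := by group
          _ = h * k * h⁻¹ * t := by rw [e]; group⟩) (hsup 1 N.one_mem)
    have hn' : n ∈ N ⊓ Subgroup.centralizer ((H 1 ⊓ T : Subgroup G) : Set G) := ⟨hn, fun t ht => by
      have e : n * t * n⁻¹ * t⁻¹ = 1 := hbot 1 N.one_mem _
        (by have := N.mul_mem hn (hNn.conj_mem _ (N.inv_mem hn) t); simpa [mul_assoc] using this)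
        ((H 1).mul_mem (hnt t ht).1 ((H 1).inv_mem ht.1))
      calc t * n = n * t * n⁻¹ * t⁻¹ * (t * n) := by rw [e, one_mul]
        _ = n * t := by group⟩
    have hle := hmin _ hK fun e => h1 (Subgroup.mem_bot.1 (e ▸ hn'))
    exact hρN (hcent ρ hρ fun a ha => (hle ha).2 ρ hρ1)
  have key : ∀ a ∈ N, ∃ k ∈ N ⊓ Ce x, k * ρ * k⁻¹ * ρ⁻¹ = a := fun a ha => by
    obtain ⟨k, hk, e⟩ := GT.SZ.conj_of_comm N (H 1 ⊓ T) (H a ⊓ T) (hcop 1 N.one_mem) (hcop a ha)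
      ((hNR 1 N.one_mem).trans (hNR a ha).symm)
    have e1 : ∀ t ∈ H 1 ⊓ T, k * t * k⁻¹ ∈ H a ⊓ T := fun t ht => by
      rw [← e]; exact Subgroup.smul_mem_pointwise_smul t (MulAut.conj k) _ ht
    have e2 : ∀ t ∈ H a ⊓ T, k⁻¹ * t * k ∈ H 1 ⊓ T := fun t ht => by
      rw [← e, Subgroup.mem_pointwise_smul_iff_inv_smul_mem] at ht
      simpa using ht
    have e3 : k⁻¹ * (x * k * x⁻¹) = 1 := hC _ (N.mul_mem (N.inv_mem hk) (hNn.conj_mem _ hk x)) fun t ht => by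
      have := e2 _ (hcR a x (hx a) _ (e1 _ (hcR 1 x⁻¹ ((H 1).inv_mem (hx 1)) t ht)))
      convert this using 1
      group
    have e4 : a * ρ * (k * ρ * k⁻¹)⁻¹ = 1 := hbot a ha _
      (by have := N.mul_mem (N.mul_mem ha (hNn.conj_mem _ hk ρ)) (N.inv_mem hk); simpa [mul_assoc] using this)
      ((H a).mul_mem (hy a) ((H a).inv_mem (e1 ρ hρ1).1))
    refine ⟨k, ⟨hk, Subgroup.mem_centralizer_singleton_iff.2 ?_⟩, ?_⟩
    · calc k * x = k * (k⁻¹ * (x * k * x⁻¹)) * x := by rw [e3, mul_one]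
        _ = x * k := by group
    · calc k * ρ * k⁻¹ * ρ⁻¹ = a * ρ * (k * ρ * k⁻¹)⁻¹ * (k * ρ * k⁻¹ * ρ⁻¹) := by rw [e4, one_mul]
        _ = a := by group
  have hcard : Nat.card N ≤ Nat.card (N ⊓ Ce x : Subgroup G) := by
    refine Nat.card_le_card_of_surjective (fun k : (N ⊓ Ce x : Subgroup G) =>
      (⟨k.1 * ρ * k.1⁻¹ * ρ⁻¹, by
        have := N.mul_mem k.2.1 (hNn.conj_mem _ (N.inv_mem k.2.1) ρ)
        simpa [mul_assoc] using this⟩ : N)) fun a => ?_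
    obtain ⟨k, hk, e⟩ := key a a.2
    exact ⟨⟨k, hk⟩, Subtype.ext e⟩
  have heq : N ⊓ Ce x = N := Subgroup.eq_of_le_of_card_ge inf_le_left hcard
  have hxc : ∀ a ∈ N, Commute x a := fun a ha =>
    (Subgroup.mem_centralizer_singleton_iff.1 (heq.ge ha).2).symm
  refine hρx (hcent _ ?_ fun a ha => ?_)
  · have := T.mul_mem hρ (hTn.conj_mem _ (T.inv_mem hρ) x)
    simpa [mul_assoc] using this
  · refine Commute.mul_left ?_ (hxc a ha).inv_left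
    have e := (hxc _ (hNn.conj_mem _ ha ρ⁻¹)).eq
    calc ρ * x * ρ⁻¹ * a = ρ * (x * (ρ⁻¹ * a * ρ⁻¹⁻¹)) * ρ⁻¹ := by group
      _ = a * (ρ * x * ρ⁻¹) := by rw [e]; group

end Cfsg.Agent.F2C
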