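import Mathlib
import Cfsg.Agent.F2C.Defs
import Cfsg.Agent.F2C.BasicA
import Cfsg.Agent.F2C.BasicB
import Cfsg.Agent.F2C.Dmax
import Cfsg.Agent.GT.Zipper
import Cfsg.Agent.GT.Fitting

set_option autoImplicit false
open Cfsg

namespace Cfsg.Agent.F2C

open Cfsg.Agent.GT
open scoped commutatorElement

variable {G : Type*} [Group G] [Finite G]

theorem Zip_aux_sub {p : ℕ} (hp : p.Prime) {F B K : Subgroup G} (h1 : F ≤ B) (h2 : B ≤ K) (hn : K ≤ Nm F)
    (hk : ∀ k ∈ K, ∃ n : ℕ, k ^ p ^ n ∈ F) : SubnormalIn B K := by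
  have := Fact.mk hp
  have : (F.subgroupOf K).Normal := (Subgroup.normal_subgroupOf_iff_le_normalizer (h1.trans h2)).2 hn
  have pg : IsPGroup p (K ⧸ F.subgroupOf K) := fun g => by
    obtain ⟨k, rfl⟩ := QuotientGroup.mk_surjective g
    obtain ⟨n, e⟩ := hk k k.2
    exact ⟨n, by rw [← QuotientGroup.mk_pow, QuotientGroup.eq_one_iff]; exact e⟩
  have := pg.isNilpotent
  have k := (subnormalIn_top_iff.2 (isSubnormal_of_isNilpotent
    ((B.subgroupOf K).map (QuotientGroup.mk' (F.subgroupOf K))))).comap (QuotientGroup.mk' (F.subgroupOf K))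
  rw [Subgroup.comap_top, Subgroup.comap_map_eq_self
    (by rw [QuotientGroup.ker_mk']; exact Subgroup.subgroupOf_mono K h1)] at k
  exact ⟨h2, subnormalIn_top_iff.1 k⟩

theorem Zip_aux_max {p : ℕ} {x : G} (h : Core p x) {D : Subgroup G} (hD : Maximal (DD p x) D) :
    ∃ M : Subgroup G, IsCoatom M ∧ ∀ H : Subgroup G, D ≤ H → x ∈ H → H ≠ ⊤ → H ≤ M := by
  obtain ⟨M, hM, -, k⟩ := zipper_coatom (A := D ⊔ Subgroup.zpowers x) (fun H hA hH => by
    have hx : x ∈ H := hA (Subgroup.mem_sup_right (Subgroup.mem_zpowers x))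
    obtain ⟨d1, -, d3, F, K, f1, f2, f3, f4, f5, -, f7, f8, f9⟩ := h.dmax_spec hH hx
    have e : D = ⁅F, Subgroup.zpowers x⁆ := by
      have l := d3 D hD.prop (le_sup_left.trans hA)
      exact (le_antisymm l (hD.le_of_ge d1 l)).trans f9
    obtain ⟨c1, c2, -⟩ := coprime_decomp h.prime h.ord f7 (f3 hx)
    rw [← e] at c1 c2
    refine SubnormalIn.step (K := F ⊔ Subgroup.zpowers x) (sup_le_sup_right c1 _)
      (sup_le (fun f hf => Subgroup.mem_normalizer_fintype fun a ha => ?_)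
        (le_sup_right.trans Subgroup.le_normalizer)) ((Zip_aux_sub h.prime le_sup_left
          (sup_le f1 ((Subgroup.zpowers_le).2 f5)) (f2.trans f3) f8).trans (.of_le_normalizer f2 f4))
    have l : D ⊔ Subgroup.zpowers x ≤ (D ⊔ Subgroup.zpowers x).comap (MulAut.conj f).toMonoidHom := by
      refine sup_le (fun d hd => ?_) fun y hy => ?_
      · exact Subgroup.mem_sup_left ((Subgroup.mem_normalizer_iff.1 (c2 hf) d).1 hd)
      · have m : ⁅f, y⁆ * y ∈ D ⊔ Subgroup.zpowers x :=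
          Subgroup.mul_mem_sup (e ▸ Subgroup.commutator_mem_commutator hf hy) hy
        rw [commutatorElement_def, inv_mul_cancel_right] at m
        exact m
    exact l ha) (fun hs => by
    have := hD.prop.1
    have b : D = ⊥ := le_bot_iff.1 (h.fit ▸ le_fitting_of_isSubnormal
      ((SubnormalIn.of_le_normalizer le_sup_left (sup_le Subgroup.le_normalizer
        ((Subgroup.zpowers_le).2 hD.prop.2.2.1))).isSubnormal hs))
    rw [b, bot_sup_eq] at hs
    have := Fact.mk h.prime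
    have pg : IsPGroup p (Subgroup.zpowers x) :=
      IsPGroup.of_card (n := 1) (by rw [Nat.card_zpowers, h.ord, pow_one])
    have l := le_fitting_of_isSubnormal hs (h := pg.isNilpotent)
    rw [h.fit] at l
    have e : x = 1 := Subgroup.mem_bot.1 (l (Subgroup.mem_zpowers x))
    exact h.prime.one_lt.ne (by rw [← h.ord, e, orderOf_one]))
  exact ⟨M, hM, fun H h1 h2 => k H (sup_le h1 ((Subgroup.zpowers_le).2 h2))⟩

/-- zipper: a maximal member of `𝒟(x)` together with `x` lies in a unique maximal subgroup -/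
theorem Core.zip {p : ℕ} {x : G} (h : Core p x) {D M M' : Subgroup G} (hD : Maximal (DD p x) D)
    (hM : IsCoatom M) (hM' : IsCoatom M') (h1 : D ≤ M) (h2 : D ≤ M') (hx : x ∈ M) (hx' : x ∈ M') :
    M = M' := by
  obtain ⟨N, hN, k⟩ := Zip_aux_max h hD
  exact ((hM.le_iff_eq hN.1).1 (k M h1 hx hM.1)).symm.trans ((hM'.le_iff_eq hN.1).1 (k M' h2 hx' hM'.1))

theorem Core.exists_dd {p : ℕ} {x : G} (h : Core p x) : ∃ D, DD p x D ∧ D ≠ ⊥ := by
  by_contra c
  push Not at c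
  have b : DD p x (⊥ : Subgroup G) :=
    ⟨inferInstance, by simp, Subgroup.le_normalizer_of_normal (Subgroup.mem_top x), Subgroup.commutator_bot_left _⟩
  obtain ⟨N, hN, k⟩ := Zip_aux_max h (D := ⊥) ⟨b, fun D hD _ => (c D hD).le⟩
  exact hN.1 (top_le_iff.1 fun y _ => k _ bot_le (Subgroup.subset_closure (by simp)) (h.two y)
    (Subgroup.subset_closure (by simp)))

/-- the member of `𝒟*` above a full part -/
theorem Core.dmax_nm {p q : ℕ} {x : G} (h : Core p x) (hq : q.Prime) (hqp : q ≠ p)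
    {Q : Subgroup G} (hQ : Maximal (DQ q x) Q) (hne : Q ≠ ⊥) :
    Maximal (DD p x) (Dmax p x (Nm Q)) ∧ Q ≤ Dmax p x (Nm Q) ∧
    ∀ D, DD p x D → Q ≤ D → D ≤ Dmax p x (Nm Q) := by
  have hd := hQ.prop.dd h.prime hq hqp
  obtain ⟨d1, -, d3, -⟩ := h.dmax_spec (h.nm_ne_top hd.1 hne) hQ.prop.2.1
  have k1 := d3 Q hd Subgroup.le_normalizer
  have k2 : ∀ D, DD p x D → Q ≤ D → D ≤ Dmax p x (Nm Q) := fun D hD l => by
    obtain ⟨a1, -, a3, -⟩ := dd_parts h.prime hq h.ord hD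
    have l' : Q ≤ Dq q x D := le_sSup ⟨l, hQ.prop⟩
    rw [le_antisymm (hQ.le_of_ge a1 l') l'] at a3
    exact d3 D hD a3
  exact ⟨⟨d1, fun D hD l => k2 D hD (k1.trans l)⟩, k1, k2⟩

theorem Core.exists_line {p q : ℕ} {x : G} (h : Core p x) (hq : q.Prime) (hqp : q ≠ p)
    {Q : Subgroup G} (hQ : Maximal (DQ q x) Q) (hne : Q ≠ ⊥) : ∃ M, Line q x M ∧ Nm Q ≤ M := by
  obtain ⟨M, hM, l⟩ := (eq_top_or_exists_le_coatom (Nm Q)).resolve_left
    (h.nm_ne_top (hQ.prop.dd h.prime hq hqp).1 hne)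
  exact ⟨M, ⟨hM, Q, hQ, hne, l⟩, l⟩

theorem Core.line_spec {p q : ℕ} {x : G} (h : Core p x) (hq : q.Prime) (hqp : q ≠ p)
    {M : Subgroup G} (hM : Line q x M) :
    x ∈ M ∧ Maximal (DQ q x) (Dq q x M) ∧ Dq q x M ≠ ⊥ ∧ Nm (Dq q x M) ≤ M ∧
    Maximal (DD p x) (Dmax p x M) ∧
    (∀ M', IsCoatom M' → Dmax p x M ≤ M' → x ∈ M' → M' = M) ∧
    (∀ M', IsCoatom M' → Nm (Dq q x M) ≤ M' → M' = M) := by
  obtain ⟨hc, Q, hQ, hne, l⟩ := hM
  have hx : x ∈ M := l hQ.prop.2.1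
  obtain ⟨a1, -, -, a4, -⟩ := h.dq_spec hq hqp hc.1 hx
  have l1 := a4 Q hQ.prop (Subgroup.le_normalizer.trans l)
  have e1 : Dq q x M = Q := le_antisymm (hQ.le_of_ge a1 l1) l1
  obtain ⟨m1, -, -⟩ := h.dmax_nm hq hqp hQ hne
  obtain ⟨-, n2, -⟩ := h.dmax_spec (h.nm_ne_top (hQ.prop.dd h.prime hq hqp).1 hne) hQ.prop.2.1
  obtain ⟨d1, d2, d3, -⟩ := h.dmax_spec hc.1 hx
  have l2 := d3 _ m1.prop (n2.trans l)
  have e2 : Dmax p x M = Dmax p x (Nm Q) := le_antisymm (m1.le_of_ge d1 l2) l2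
  rw [e1, e2]
  exact ⟨hx, hQ, hne, l, m1, fun M' c l' hx' => h.zip m1 c hc l' (n2.trans l) hx' hx,
    fun M' c l' => h.zip m1 c hc (n2.trans l') (n2.trans l) (l' hQ.prop.2.1) hx⟩

end Cfsg.Agent.F2C
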